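import Mathlib.Data.Nat.GCD.Basic
import Mathlib.Data.Nat.Log

/-! A search through the possible class equations of a finite simple group: the program. -/

set_option autoImplicit false

namespace CL.Cls

noncomputable section

def frc {β : Type} (n : ℕ) (k : ℕ → β) : β := Nat.rec (k 0) (fun m _ => k (Nat.succ m)) n

def anyL {α : Type} (f : α → Bool) (l : List α) : Bool :=
  List.rec false (fun a _ ih => Bool.rec ih true (f a)) l

def allL {α : Type} (f : α → Bool) (l : List α) : Bool :=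
  List.rec true (fun a _ ih => Bool.rec false ih (f a)) l

def dv (a b : ℕ) : Bool := Nat.beq (b % a) 0

def nt (b : Bool) : Bool := Bool.rec true false b
def an (a b : Bool) : Bool := Bool.rec false b a
def orr (a b : Bool) : Bool := Bool.rec b true a
def imp (a b : Bool) : Bool := Bool.rec true b a
def cnd {β : Type} (a : Bool) (x y : β) : β := Bool.rec y x a
def mx (a b : ℕ) : ℕ := Bool.rec a b (Nat.ble a b)
def mn (a b : ℕ) : ℕ := Bool.rec b a (Nat.ble a b)

/-- a lower bound for the powers of `2` that are `≥ x` -/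
def nx2 (x : ℕ) : ℕ := cnd (Nat.ble x 1) 1 (2 ^ (Nat.log2 (x - 1) + 1))

/-- a lower bound for the `q * p ^ i * v ≥ x`, where `g y` bounds the `v ≥ y` -/
def nxp (g : ℕ → ℕ) (p x : ℕ) (f : ℕ) : ℕ → ℕ :=
  Nat.rec (fun _ => 1) (fun _ ih q => cnd (Nat.ble x q) q
    (frc (q * g ((x - 1) / q + 1)) fun a => frc (ih (q * p)) fun b => mn a b)) f

def nx1 (p x : ℕ) (f : ℕ) : ℕ → ℕ :=
  Nat.rec (fun _ => 1) (fun _ ih q => cnd (Nat.ble x q) q (ih (q * p))) f

/-- a lower bound for the numbers `≥ x` all of whose prime factors lie in the list -/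
def nxs (ps : List ℕ) : ℕ → ℕ :=
  List.rec (fun x => x) (fun p tl ih x =>
    List.rec (cnd (Nat.beq p 2) (nx2 x) (nx1 p x 64 1)) (fun _ _ _ => nxp ih p x 64 1) tl) ps

/-- the static data of an order -/
structure St where
  o : ℕ
  b : ℕ
  own : List ℕ
  fo : List ℕ
  al : List ℕ
  sec : List ℕ

/-- `r` classes of order `s.o` remain, with centralizers of order `≥ x` -/
structure Ent where
  s : St
  o : ℕ
  r : ℕ
  x : ℕ

structure Par where
  cmin : ℕ
  c2 : ℕ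
  nmin : ℕ
  N0 : ℕ
  must : List ℕ
  forb : List ℕ
  e66 : Bool

def St.nxt (s : St) (y : ℕ) : ℕ := s.b * nxs s.al ((y - 1) / s.b + 1)

def ins (e : Ent) (R : List Ent) : List Ent :=
  List.rec [e] (fun a tl ih => cnd (orr (Nat.blt e.x a.x) (an (Nat.beq e.x a.x) (Nat.ble a.o e.o)))
    (e :: a :: tl) (a :: ih)) R

def KK : ℕ := 1208925819614629174706176

def ub (R : List Ent) : ℕ := List.rec 0 (fun a _ ih => a.r * KK / a.x + 1 + ih) R

def inG (p q o : ℕ) : Bool := an (dv q o) (nt (dv (p * q) o))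

/-- the mass of a section as an unreduced fraction -/
def mass (p q : ℕ) (k : ℕ → ℕ → Bool) (L : List (ℕ × ℕ)) : ℕ → ℕ → Bool :=
  List.rec k (fun a _ ih A B => cnd (inG p q a.2)
    (frc (A * a.1 + B) fun A' => frc (B * a.1) fun B' => ih A' B') (ih A B)) L

def mult (P : List (ℕ × ℕ)) (d : ℕ) : ℕ :=
  List.rec 0 (fun a _ ih => cnd (Nat.beq a.1 d) a.2 ih) P

def secK (P : List (ℕ × ℕ)) (R : List Ent) (p q A B : ℕ) : Bool :=
  cnd (anyL (fun a => inG p q a.o) R) (Nat.blt (A * q) (mult P q * B))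
    (an (Nat.ble (A * q) (mult P q * B))
      (frc (B / Nat.gcd B (p ^ 200)) fun B' => orr (dv p B') (dv B' A)))

def secOK (P : List (ℕ × ℕ)) (R : List Ent) (L : List (ℕ × ℕ)) (o p : ℕ) : Bool :=
  frc (Nat.gcd o (p ^ 20)) fun q => mass p q (secK P R p q) L 0 1

def powOK (o c : ℕ) (R : List Ent) (L : List (ℕ × ℕ)) (p : ℕ) : Bool :=
  orr (Nat.beq o p) (frc (o / p) fun d => orr (anyL (fun a => Nat.beq a.o d) R)
    (anyL (fun a => an (Nat.beq a.2 d) (dv c a.1)) L))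

def dpOK (o c : ℕ) (R : List Ent) (L : List (ℕ × ℕ)) (p : ℕ) : Bool :=
  imp (dv p c) (frc (p * o) fun d =>
    orr (anyL (fun a => an (Nat.beq a.2 d) (an (dv a.1 c) (nt (dv p (c / a.1))))) L)
      (anyL (fun a => an (Nat.beq a.o d) (Nat.ble a.x c)) R))

def att (N0 : ℕ) (s : St) (o c : ℕ) (R : List Ent) (L : List (ℕ × ℕ)) : Bool :=
  an (dv c N0) (an (allL (dpOK o c R L) s.fo) (allL (powOK o c R L) s.own))

def jump (lo : ℕ) (R : List Ent) : List Ent :=
  List.rec [] (fun a tl ih => cnd (Nat.blt a.x lo)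
    (frc (a.s.nxt lo) fun x => ins ⟨a.s, a.o, a.r, x⟩ ih) (a :: tl)) R

abbrev Kont := List Ent → List (ℕ × ℕ) → ℕ → ℕ → Bool

def asg2 (ih : Kont) (R : List Ent) (L : List (ℕ × ℕ)) (n2 d2 : ℕ) : Bool :=
  frc (Nat.gcd n2 d2) fun g => frc (n2 / g) fun n3 => frc (d2 / g) fun d3 =>
    frc (d3 / n3 + 1) fun lo => ih (jump lo R) L n3 d3

def asg1 (P : List (ℕ × ℕ)) (ih : Kont) (s : St) (o c : ℕ) (R : List Ent) (L : List (ℕ × ℕ))
    (num den : ℕ) : Bool :=
  imp (allL (secOK P R L o) s.sec)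
    (frc (num * c - den) fun n2 => frc (den * c) fun d2 => asg2 ih R L n2 d2)

def step1 (N0 nmin : ℕ) (P : List (ℕ × ℕ)) (ih : Kont) (s : St) (o r c : ℕ) (R : List Ent)
    (L : List (ℕ × ℕ)) (num den : ℕ) : Bool :=
  cnd (Nat.blt ((r * KK / c + 1 + ub R + (KK / mx nmin (2 * c) + 1)) * den) (num * KK)) true
    (an (imp (att N0 s o c R L) (asg1 P ih s o c
        (Nat.rec R (fun _ _ => frc (r - 1) fun r' => ⟨s, o, r', c⟩ :: R) (r - 1))
        ((c, o) :: L) num den))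
      (frc (s.nxt (c + 1)) fun x => ih (ins ⟨s, o, r, x⟩ R) L num den))

def step (N0 nmin : ℕ) (P : List (ℕ × ℕ)) (leaf : ℕ → List (ℕ × ℕ) → Bool) (f : ℕ) : Kont :=
  Nat.rec (fun _ _ _ _ => false) (fun _ ih R L num den =>
    List.rec (imp (dv num den) (frc (den / num) fun n => leaf n L))
      (fun e R' _ => Ent.rec (fun s o r c => step1 N0 nmin P ih s o r c R' L num den) e) R) f

def lcmO (P : List (ℕ × ℕ)) (o : ℕ) : ℕ :=
  List.rec o (fun a _ ih => cnd (dv o a.1) (Nat.lcm a.1 ih) ih) P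

def memO (P : List (ℕ × ℕ)) (d : ℕ) : Bool := anyL (fun a => Nat.beq a.1 d) P

def memN (l : List ℕ) (d : ℕ) : Bool := anyL (fun a => Nat.beq a d) l

/-- the odd prime `o` may divide the order exactly once -/
def ok1 (P : List (ℕ × ℕ)) (o m : ℕ) : Bool :=
  an (dv m (o - 1)) (an (memO P ((o - 1) / m)) (nt (memO P (o * o))))

/-- a divisor of the centralizer orders -/
def bas (P : List (ℕ × ℕ)) (Ps : List ℕ) (o m : ℕ) : ℕ :=
  frc (cnd (Nat.beq m 1) (lcmO P o) o) fun b =>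
    cnd (Nat.beq o 2) (Nat.lcm b 4)
      (cnd (an (memN Ps o) (nt (ok1 P o m))) (Nat.lcm b (o * o)) b)

/-- a lower bound for the centralizer orders -/
def low (a : Par) (P : List (ℕ × ℕ)) (Ps : List ℕ) (o m : ℕ) : ℕ :=
  cnd (Nat.beq o 2) a.c2 (cnd (an (Nat.blt 1 m) (memN Ps o))
    (frc (lcmO P o) fun l => frc (mn l (o * o)) fun l => mx l a.cmin)
    (cnd (an (Nat.beq o 6) (an a.e66 (Nat.beq (mult P 2) 1))) 12 a.cmin))

def lb (a : Par) (P : List (ℕ × ℕ)) (Ps : List ℕ) (o m : ℕ) : ℕ :=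
  frc (bas P Ps o m) fun b => ((low a P Ps o m - 1) / b + 1) * b

def ub1 (a : Par) (P : List (ℕ × ℕ)) (Ps : List ℕ) (Q : List (ℕ × ℕ)) : ℕ :=
  List.rec 0 (fun y _ ih => y.2 * KK / lb a P Ps y.1 y.2 + 1 + ih) Q

def flt (f : ℕ → Bool) (l : List ℕ) : List ℕ :=
  List.rec [] (fun a _ ih => cnd (f a) (a :: ih) ih) l

def mkSt (P : List (ℕ × ℕ)) (Ps : List ℕ) (o b : ℕ) : St :=
  ⟨o, b, flt (fun p => dv p o) Ps, flt (fun p => an (nt (dv p o)) (memO P (p * o))) Ps,
    flt (fun p => orr (dv p o) (memO P (p * o))) Ps,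
    flt (fun p => an (dv p o) (frc (Nat.gcd o (p ^ 20)) fun q =>
      anyL (fun y => an (inG p q y.1) (nt (Nat.beq y.1 q))) P)) Ps⟩

def mkR (a : Par) (P : List (ℕ × ℕ)) (Ps : List ℕ) (Q : List (ℕ × ℕ)) : List Ent :=
  List.rec [] (fun y _ ih => frc (bas P Ps y.1 y.2) fun b => frc y.1 fun o => frc y.2 fun m =>
    frc ((mkSt P Ps o b).nxt (low a P Ps o m)) fun x => ins ⟨mkSt P Ps o b, o, m, x⟩ ih) Q

/-- all `m` with `lo ≤ m < lo + n` -/
def allR (f : ℕ → Bool) (lo n : ℕ) : Bool :=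
  Nat.rec (motive := fun _ => ℕ → Bool) (fun _ => true) (fun _ ih m => an (f m) (ih (m + 1))) n lo

abbrev Kont1 := List (ℕ × ℕ) → List ℕ → ℕ → ℕ → Bool

def new1 (a : Par) (ih : Kont1) (P : List (ℕ × ℕ)) (Ps : List ℕ) (rem o : ℕ) : Bool :=
  cnd (anyL (fun p => dv p o) Ps)
    (imp (an (allL (fun p => imp (dv p o) (memO P (o / p))) Ps)
        (an (dv o a.N0) (nt (memN a.forb o))))
      (allR (fun m => frc m fun m => frc (rem - m) fun r => ih ((o, m) :: P) Ps o r) 1 rem))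
    (imp (an (dv o a.N0) (nt (memN a.forb o)))
      (allR (fun m => frc m fun m => imp (orr (Nat.ble (o - 1) m)
          (anyL (fun y => an (dv y.1 (o - 1)) (Nat.ble (o - 1) (y.1 * m))) P))
        (frc (rem - m) fun r => ih ((o, m) :: P) (o :: Ps) o r)) 1 rem))

def scan (a : Par) (ih : Kont1) (P : List (ℕ × ℕ)) (Ps : List ℕ) (rem s f : ℕ) : ℕ → Bool :=
  Nat.rec (fun _ => true) (fun _ ih2 o =>
    cnd (orr (Nat.blt (s + (rem * KK / mx o a.cmin + 1)) KK)
        (anyL (fun d => an (Nat.blt d o) (nt (memO P d))) a.must)) true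
      (an (new1 a ih P Ps rem o) (frc (o + 1) ih2))) f

def ph1 (a : Par) (hook : Kont1) (leaf : List (ℕ × ℕ) → ℕ → List (ℕ × ℕ) → Bool) (f : ℕ) :
    Kont1 :=
  Nat.rec (fun _ _ _ _ => false) (fun _ ih P Ps last rem => orr (hook P Ps last rem)
    (frc (ub1 a P Ps P + (KK / a.nmin + 1)) fun s =>
      cnd (Nat.beq rem 0)
        (orr (Nat.blt s KK) (imp (allL (memO P) a.must)
          (step a.N0 a.nmin P (leaf P) 3000 (mkR a P Ps P) [] 1 1)))
        (frc (last + 1) (scan a ih P Ps rem s (last * (last + rem)))))) f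

end

end CL.Cls
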