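import Mathlib
import Cfsg.Agent.INV.Cls.Defs

/-! The class equation search: specification of the small programs. -/

set_option autoImplicit false

namespace CL.Cls

@[simp] theorem frc_eq {β : Type} (n : ℕ) (k : ℕ → β) : frc n k = k n := by cases n <;> rfl

@[simp] theorem nt_iff {a : Bool} : nt a = true ↔ ¬ a = true := by cases a <;> simp [nt]
@[simp] theorem an_iff {a b : Bool} : an a b = true ↔ a = true ∧ b = true := by
  cases a <;> simp [an]
@[simp] theorem orr_iff {a b : Bool} : orr a b = true ↔ a = true ∨ b = true := by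
  cases a <;> simp [orr]
@[simp] theorem imp_iff {a b : Bool} : imp a b = true ↔ (a = true → b = true) := by
  cases a <;> simp [imp]
theorem cnd_eq {β : Type} (a : Bool) (x y : β) : cnd a x y = if a = true then x else y := by
  cases a <;> simp [cnd]
@[simp] theorem mx_eq (a b : ℕ) : mx a b = max a b := by
  unfold mx; cases h : Nat.ble a b
  · have : ¬ a ≤ b := by rw [← Nat.ble_eq, h]; simp
    simp; omega
  · have : a ≤ b := by rw [← Nat.ble_eq, h]
    simp; omega
@[simp] theorem mn_eq (a b : ℕ) : mn a b = min a b := by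
  unfold mn; cases h : Nat.ble a b
  · have : ¬ a ≤ b := by rw [← Nat.ble_eq, h]; simp
    simp; omega
  · have : a ≤ b := by rw [← Nat.ble_eq, h]
    simp; omega
@[simp] theorem dv_iff {a b : ℕ} : dv a b = true ↔ a ∣ b := by
  simp [dv, Nat.dvd_iff_mod_eq_zero]

@[simp] theorem anyL_iff {α : Type} {f : α → Bool} {l : List α} :
    anyL f l = true ↔ ∃ a ∈ l, f a = true := by
  induction l with
  | nil => simp [anyL]
  | cons a l ih =>
    have : anyL f (a :: l) = orr (f a) (anyL f l) := rfl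
    simp [this, ih]

@[simp] theorem allL_iff {α : Type} {f : α → Bool} {l : List α} :
    allL f l = true ↔ ∀ a ∈ l, f a = true := by
  induction l with
  | nil => simp [allL]
  | cons a l ih =>
    have : allL f (a :: l) = an (f a) (allL f l) := rfl
    simp [this, ih]

@[simp] theorem memO_iff {P : List (ℕ × ℕ)} {d : ℕ} : memO P d = true ↔ ∃ a ∈ P, a.1 = d := by
  simp [memO]

@[simp] theorem memN_iff {l : List ℕ} {d : ℕ} : memN l d = true ↔ d ∈ l := by simp [memN]

@[simp] theorem inG_iff {p q o : ℕ} : inG p q o = true ↔ q ∣ o ∧ ¬ p * q ∣ o := by simp [inG]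

@[simp] theorem mem_flt {f : ℕ → Bool} {l : List ℕ} {a : ℕ} :
    a ∈ flt f l ↔ a ∈ l ∧ f a = true := by
  induction l with
  | nil => simp [flt]
  | cons b l ih =>
    have : flt f (b :: l) = cnd (f b) (b :: flt f l) (flt f l) := rfl
    rw [this, cnd_eq]
    split_ifs with h
    · simp only [List.mem_cons, ih]
      constructor
      · rintro (rfl | h') <;> tauto
      · tauto
    · simp only [List.mem_cons, ih]
      constructor
      · tauto
      · rintro ⟨rfl | h', h''⟩ <;> tauto

theorem allR_spec {f : ℕ → Bool} {lo n : ℕ} (h : allR f lo n = true) {m : ℕ} (h1 : lo ≤ m)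
    (h2 : m < lo + n) : f m = true := by
  induction n generalizing lo with
  | zero => omega
  | succ n ih =>
    have : allR f lo (n + 1) = an (f lo) (allR f (lo + 1) n) := rfl
    rw [this, an_iff] at h
    rcases h1.eq_or_lt with rfl | h1
    · exact h.1
    · exact ih h.2 h1 (by omega)

theorem nx2_le {x i : ℕ} (h : x ≤ 2 ^ i) : nx2 x ≤ 2 ^ i := by
  rw [nx2, cnd_eq]
  split_ifs with h1
  · exact Nat.one_le_two_pow
  · rw [Nat.ble_eq] at h1
    exact Nat.pow_le_pow_right two_pos ((Nat.log2_lt (by omega)).2 (by omega))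

theorem nx1_le {p x f q i : ℕ} (hp : 0 < p) (hq : 0 < q) (h : x ≤ q * p ^ i) :
    nx1 p x f q ≤ q * p ^ i := by
  induction f generalizing q i with
  | zero => exact Nat.mul_pos hq (pow_pos hp _)
  | succ f ih =>
    have : nx1 p x (f + 1) q = cnd (Nat.ble x q) q (nx1 p x f (q * p)) := rfl
    rw [this, cnd_eq]
    split_ifs with h1
    · exact Nat.le_mul_of_pos_right _ (pow_pos hp _)
    · rw [Nat.ble_eq] at h1
      cases i with
      | zero => simp at h; omega
      | succ i =>
        rw [pow_succ', ← mul_assoc] at h ⊢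
        exact ih (Nat.mul_pos hq hp) h

theorem ceil_le {x q v : ℕ} (hq : 0 < q) (hv : 0 < v) (h : x ≤ q * v) : (x - 1) / q + 1 ≤ v := by
  have := (Nat.div_lt_iff_lt_mul hq (x := x - 1) (y := v)).2 (by
    have := Nat.mul_pos hq hv
    rw [mul_comm]; omega)
  omega

theorem nxp_le {g : ℕ → ℕ} {p x f q i v : ℕ} (hp : 0 < p) (hq : 0 < q) (hv : 0 < v)
    (hg : ∀ y, y ≤ v → g y ≤ v) (h : x ≤ q * p ^ i * v) : nxp g p x f q ≤ q * p ^ i * v := by
  induction f generalizing q i with
  | zero => exact Nat.mul_pos (Nat.mul_pos hq (pow_pos hp _)) hv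
  | succ f ih =>
    have : nxp g p x (f + 1) q = cnd (Nat.ble x q) q (frc (q * g ((x - 1) / q + 1)) fun a =>
      frc (nxp g p x f (q * p)) fun b => mn a b) := rfl
    rw [this, cnd_eq]
    split_ifs with h1
    · rw [mul_assoc]
      exact Nat.le_mul_of_pos_right _ (Nat.mul_pos (pow_pos hp _) hv)
    · simp only [frc_eq, mn_eq]
      cases i with
      | zero =>
        simp only [pow_zero, mul_one] at h ⊢
        exact (min_le_left _ _).trans (Nat.mul_le_mul_left _ (hg _ (ceil_le hq hv h)))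
      | succ i =>
        rw [pow_succ', ← mul_assoc] at h ⊢
        exact (min_le_right _ _).trans (ih (Nat.mul_pos hq hp) h)

theorem nxs_le {ps : List ℕ} (hps : ∀ p ∈ ps, p.Prime) {v x : ℕ} (hv : 0 < v)
    (h : ∀ p, p.Prime → p ∣ v → p ∈ ps) (hx : x ≤ v) : nxs ps x ≤ v := by
  induction ps generalizing v x with
  | nil => exact hx
  | cons p tl ih =>
    have hp := hps p (by simp)
    obtain ⟨i, w, hw, rfl⟩ := Nat.exists_eq_pow_mul_and_not_dvd hv.ne' p hp.one_lt.ne'
    have hw0 : 0 < w := Nat.pos_of_mul_pos_left hv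
    have hw1 : ∀ r, r.Prime → r ∣ w → r ∈ tl := fun r hr hrw =>
      (List.mem_cons.1 (h r hr (hrw.mul_left _))).resolve_left (by rintro rfl; exact hw hrw)
    cases tl with
    | nil =>
      obtain rfl : w = 1 := by
        by_contra h1
        simpa using hw1 _ (Nat.minFac_prime h1) (Nat.minFac_dvd _)
      have : nxs [p] x = cnd (Nat.beq p 2) (nx2 x) (nx1 p x 64 1) := rfl
      rw [this, cnd_eq]
      rw [mul_one] at hx ⊢
      split_ifs with h2
      · obtain rfl : p = 2 := by simpa using h2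
        exact nx2_le hx
      · simpa using nx1_le (q := 1) (f := 64) hp.pos one_pos (by simpa using hx)
    | cons r tl =>
      have : nxs (p :: r :: tl) x = nxp (nxs (r :: tl)) p x 64 1 := rfl
      rw [this]
      simpa using nxp_le (q := 1) (f := 64) (i := i) hp.pos one_pos hw0
        (fun y hy => ih (fun p hp => hps p (List.mem_cons_of_mem _ hp)) hw0 hw1 hy)
        (by simpa using hx)

theorem nx1_pos {p x f q : ℕ} (hp : 0 < p) (hq : 0 < q) : 0 < nx1 p x f q := by
  induction f generalizing q with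
  | zero => exact one_pos
  | succ f ih =>
    have : nx1 p x (f + 1) q = cnd (Nat.ble x q) q (nx1 p x f (q * p)) := rfl
    rw [this, cnd_eq]
    split_ifs
    · exact hq
    · exact ih (Nat.mul_pos hq hp)

theorem nxp_pos {g : ℕ → ℕ} {p x f q : ℕ} (hp : 0 < p) (hq : 0 < q) (hg : ∀ y, 0 < g (y + 1)) :
    0 < nxp g p x f q := by
  induction f generalizing q with
  | zero => exact one_pos
  | succ f ih =>
    have : nxp g p x (f + 1) q = cnd (Nat.ble x q) q (frc (q * g ((x - 1) / q + 1)) fun a =>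
      frc (nxp g p x f (q * p)) fun b => mn a b) := rfl
    rw [this, cnd_eq]
    split_ifs
    · exact hq
    · simp only [frc_eq, mn_eq]
      exact lt_min (Nat.mul_pos hq (hg _)) (ih (Nat.mul_pos hq hp))

theorem nxs_pos {ps : List ℕ} (hps : ∀ p ∈ ps, p.Prime) (x : ℕ) : 0 < nxs ps (x + 1) := by
  induction ps generalizing x with
  | nil => exact x.succ_pos
  | cons p tl ih =>
    have hp := hps p (by simp)
    cases tl with
    | nil =>
      have : nxs [p] (x + 1) = cnd (Nat.beq p 2) (nx2 (x + 1)) (nx1 p (x + 1) 64 1) := rfl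
      rw [this, cnd_eq]
      split_ifs
      · rw [nx2, cnd_eq]
        split_ifs <;> positivity
      · exact nx1_pos hp.pos one_pos
    | cons r tl =>
      exact nxp_pos (g := nxs (r :: tl)) (x := x + 1) (f := 64) hp.pos one_pos
        (ih fun p hp => hps p (List.mem_cons_of_mem _ hp))

theorem lcmO_dvd {P : List (ℕ × ℕ)} {o c : ℕ} (h : o ∣ c) (h' : ∀ a ∈ P, o ∣ a.1 → a.1 ∣ c) :
    lcmO P o ∣ c := by
  induction P with
  | nil => exact h
  | cons a P ih =>
    have : lcmO (a :: P) o = cnd (dv o a.1) (Nat.lcm a.1 (lcmO P o)) (lcmO P o) := rfl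
    have h1 := ih fun b hb => h' b (List.mem_cons_of_mem _ hb)
    rw [this, cnd_eq]
    split_ifs with h2
    · exact Nat.lcm_dvd (h' a (by simp) (dv_iff.1 h2)) h1
    · exact h1

theorem mult_eq {P : List (ℕ × ℕ)} {d m : ℕ} (h : ∃ a ∈ P, a.1 = d)
    (h' : ∀ a ∈ P, a.1 = d → a.2 = m) : mult P d = m := by
  induction P with
  | nil => simp at h
  | cons a P ih =>
    have : mult (a :: P) d = cnd (Nat.beq a.1 d) a.2 (mult P d) := rfl
    rw [this, cnd_eq]
    split_ifs with h2
    · exact h' a (by simp) (by simpa using h2)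
    · obtain ⟨b, hb, hb'⟩ := h
      exact ih ⟨b, (List.mem_cons.1 hb).resolve_left (by rintro rfl; simp [hb'] at h2), hb'⟩
        fun b hb => h' b (List.mem_cons_of_mem _ hb)

theorem mult_pos {P : List (ℕ × ℕ)} {d : ℕ} (h : 0 < mult P d) : ∃ a ∈ P, a.1 = d := by
  induction P with
  | nil => exact absurd h (lt_irrefl 0)
  | cons a P ih =>
    have : mult (a :: P) d = cnd (Nat.beq a.1 d) a.2 (mult P d) := rfl
    rw [this, cnd_eq] at h
    split_ifs at h with h2
    · exact ⟨a, by simp, by simpa using h2⟩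
    · obtain ⟨b, hb, hb'⟩ := ih h
      exact ⟨b, List.mem_cons_of_mem _ hb, hb'⟩

/-- the sum of the reciprocals of the centralizer orders -/
def W (M : Multiset (ℕ × ℕ)) : ℚ := (M.map fun y => ((y.1 : ℚ))⁻¹).sum

/-- the number of classes of a given order -/
def cnt (M : Multiset (ℕ × ℕ)) (d : ℕ) : ℕ := M.countP fun y => y.2 = d

/-- the classes whose order has `p`-part `q` -/
def sct (p q : ℕ) (M : Multiset (ℕ × ℕ)) : Multiset (ℕ × ℕ) :=
  M.filter fun y => q ∣ y.2 ∧ ¬ p * q ∣ y.2

@[simp] theorem W_zero : W 0 = 0 := rfl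
@[simp] theorem W_add (A B : Multiset (ℕ × ℕ)) : W (A + B) = W A + W B := by simp [W]
@[simp] theorem W_cons (y : ℕ × ℕ) (A : Multiset (ℕ × ℕ)) : W (y ::ₘ A) = (y.1 : ℚ)⁻¹ + W A := by
  simp [W]

theorem W_nonneg (A : Multiset (ℕ × ℕ)) : 0 ≤ W A :=
  Multiset.sum_nonneg fun x hx => by
    obtain ⟨y, -, rfl⟩ := Multiset.mem_map.1 hx
    positivity

theorem le_W {A : Multiset (ℕ × ℕ)} {y : ℕ × ℕ} (h : y ∈ A) : (y.1 : ℚ)⁻¹ ≤ W A := by
  obtain ⟨B, rfl⟩ := Multiset.exists_cons_of_mem h
  have := W_nonneg B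
  rw [W_cons]; linarith

theorem KK_pos : (0 : ℚ) < KK := by norm_num [KK]

theorem div_lt_succ (a x : ℕ) : (a : ℚ) * (x : ℚ)⁻¹ < (a / x + 1 : ℕ) := by
  rcases Nat.eq_zero_or_pos x with rfl | hx
  · simp
  · have h1 : (0 : ℚ) < x := by exact_mod_cast hx
    rw [← div_eq_mul_inv, div_lt_iff₀ h1]
    exact_mod_cast (mul_comm x _ ▸ Nat.lt_mul_div_succ a hx)

theorem W_le {A : Multiset (ℕ × ℕ)} {x : ℕ} (hx : 0 < x) (h : ∀ y ∈ A, x ≤ y.1) :
    KK * W A ≤ (A.card * KK / x + 1 : ℕ) := by
  have h1 : W A ≤ A.card * (x : ℚ)⁻¹ := by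
    have := Multiset.sum_le_card_nsmul (A.map fun y => ((y.1 : ℚ))⁻¹) (x : ℚ)⁻¹ fun z hz => by
      obtain ⟨y, hy, rfl⟩ := Multiset.mem_map.1 hz
      exact inv_anti₀ (by exact_mod_cast hx) (by exact_mod_cast h y hy)
    simpa [W] using this
  have h2 := div_lt_succ (A.card * KK) x
  have := KK_pos
  push_cast at h2 ⊢
  nlinarith

theorem inv_le {n x : ℕ} (hx : 0 < x) (h : x ≤ n) : KK * (n : ℚ)⁻¹ ≤ (KK / x + 1 : ℕ) := by
  simpa [W] using W_le (A := {(n, 0)}) hx (by simpa using h)

theorem mass_spec {p q : ℕ} {k : ℕ → ℕ → Bool} {L : List (ℕ × ℕ)} (hL : ∀ y ∈ L, 0 < y.1)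
    {A B : ℕ} (hB : 0 < B) : ∃ A' B' : ℕ, 0 < B' ∧ (A' : ℚ) / B' = A / B + W (sct p q L) ∧
      mass p q k L A B = k A' B' := by
  induction L generalizing A B with
  | nil => exact ⟨A, B, hB, by simp [sct], rfl⟩
  | cons a L ih =>
    have : mass p q k (a :: L) A B = cnd (inG p q a.2) (frc (A * a.1 + B) fun A' =>
      frc (B * a.1) fun B' => mass p q k L A' B') (mass p q k L A B) := rfl
    have ha := hL a (by simp)
    rw [this, cnd_eq, ← Multiset.cons_coe, sct, Multiset.filter_cons]
    simp only [inG_iff, frc_eq]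
    split_ifs with h
    · obtain ⟨A', B', h1, h2, h3⟩ := ih (fun y hy => hL y (List.mem_cons_of_mem _ hy))
        (A := A * a.1 + B) (Nat.mul_pos hB ha)
      refine ⟨A', B', h1, ?_, h3⟩
      rw [h2, Multiset.singleton_add, W_cons, sct, ← add_assoc]
      congr 1
      push_cast
      field_simp
    · simpa [sct] using ih (fun y hy => hL y (List.mem_cons_of_mem _ hy)) hB

end CL.Cls
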