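import Cfsg.Agent.INV.Cls.Grp2
import Cfsg.Agent.INV.Def1Sieve
import Cfsg.Agent.INV.Def1Ex
import Cfsg.Agent.CHAR.Galois
import Cfsg.Agent.SPOR.OrdTools
import Cfsg.Agent.S0133

/-! Degree checks for a simple group with a given number of classes. -/

set_option autoImplicit false
open Cfsg Subgroup CL.Char CL.D1
open CL.Blk hiding irrOne irrOne_apply

namespace CL.Cls

def blk (p e : ℕ) (s : Multiset ℤ) (d : ℤ) : Multiset ℕ :=
  s.map Int.natAbs + Multiset.replicate ((p - 1) / e) d.natAbs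

def fin2 (n : ℕ) (F : Multiset ℕ) (w : ℕ × ℕ × ℕ) : Bool :=
  (w.2.2 != 1 || (F.filter fun x => x % w.1 ≠ 0).card + 1 == w.2.1 + (w.1 - 1) / w.2.1) &&
    degB n w.1 (n / (w.1 * w.2.2 * w.2.1)) w.2.1 w.2.2 fun _ _ _ s d =>
      decide (∀ x ∈ blk w.1 w.2.1 s d, (blk w.1 w.2.1 s d).count x ≤ F.count x)

def finR (F : Multiset ℕ) (w : ℕ × ℕ × ℕ) : Bool :=
  decide (∀ x ∈ F, ∃ a ∈ List.range w.2.2, a * a < w.2.2 ∧
    (x % w.2.1 = a % w.2.1 ∨ (x + a) % w.2.1 = 0))

def finJ (n k p e : ℕ) (D S : List (ℕ × ℕ × ℕ)) (B : Multiset ℕ) : Bool :=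
  go n (fun l => 1 + ((B + l.map Int.natAbs).map (· ^ 2)).sum == n &&
      D.all (fin2 n (B + l.map Int.natAbs)) && S.all (finR (B + l.map Int.natAbs)))
    (k - (e + (p - 1) / e))
    (((List.range (isqrt n n 0)).filter fun x => x % p == 0 && n % x == 0).map Int.ofNat) []
    (1 + (B.map (· ^ 2)).sum)

/-- the numerical side conditions for the data of a prime -/
def sdOK (n : ℕ) (w : ℕ × ℕ × ℕ) : Bool := primeB w.1 && w.1 != 2 && n % (w.1 * w.1) != 0

def srOK (n : ℕ) (w : ℕ × ℕ × ℕ) : Bool :=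
  primeB w.1 && w.1 ^ 20 % w.2.1 == 0 && n % w.2.1 == 0

/-- `surv2 n k D S = false` excludes a simple group of order `n` with `k` classes and data `D, S` -/
def surv2 (n k : ℕ) : List (ℕ × ℕ × ℕ) → List (ℕ × ℕ × ℕ) → Bool
  | [], _ => true
  | w :: D, S => !((w :: D).all (sdOK n) && S.all (srOK n)) ||
    (decide (w.2.1 + (w.1 - 1) / w.2.1 ≤ k) &&
      degB n w.1 (n / (w.1 * w.2.2 * w.2.1)) w.2.1 w.2.2 fun _ _ _ s d =>
        w.2.2 != 1 || finJ n k w.1 w.2.1 D S (blk w.1 w.2.1 s d))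

/-- a class of elements of order `w.1` with centralizer order `w.1 * w.2.2`; there are
`(w.1 - 1) / w.2.1` classes of this order. -/
def SD (T : Multiset (ℕ × ℕ)) (w : ℕ × ℕ × ℕ) : Prop :=
  (w.1 * w.2.2, w.1) ∈ T ∧ w.2.1 * cnt T w.1 = w.1 - 1

/-- one class of elements of order `w.1`, and no elements of order `w.1 ^ 2` -/
def SR (T : Multiset (ℕ × ℕ)) (w : ℕ × ℕ × ℕ) : Prop :=
  (w.2.2, w.1) ∈ T ∧ cnt T w.1 = 1 ∧ cnt T (w.1 * w.1) = 0

variable {G : Type*} [Group G] [Finite G]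

open Classical in
/-- the degrees of the nontrivial irreducible characters -/
noncomputable def FD (G : Type*) [Group G] [Finite G] : Multiset ℕ :=
  (Finset.univ.erase (irrOne G)).val.map fun χ => charDegree χ.1

omit [Finite G] in
theorem blk_eq {p e : ℕ} [Fact p.Prime] (D : Data G p e) {θ : IrrCharacter G} (hθ : θ ∈ D.Y) :
    blk p e D.sdeg (D.ε * charDegree θ.1) =
      (D.X.disjUnion D.Y D.disj).val.map fun χ => charDegree χ.1 := by
  have h5 : (p - 1) / e = D.Y.card := by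
    have := D.card_Y
    rw [show p - 1 = D.Y.card * e by omega, Nat.mul_div_cancel _ D.e_pos]
  rw [blk, Finset.disjUnion_val, Multiset.map_add, h5, Data.sdeg, Multiset.map_map]
  congr 1
  · exact Multiset.map_congr rfl fun χ hχ => by rcases D.δ_sign χ hχ with h | h <;> simp [h]
  · refine (Multiset.eq_replicate.2 ⟨by simp, fun b hb => ?_⟩).symm
    obtain ⟨χ, hχ, rfl⟩ := Multiset.mem_map.1 hb
    rw [D.deg_Y_eq hχ hθ]
    rcases D.ε_sign with h | h <;> simp [h]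

omit [Finite G] in
theorem card_blk {p e : ℕ} (D : Data G p e) :
    (D.X.disjUnion D.Y D.disj).card + 1 = e + (p - 1) / e := by
  have := D.card_Y
  have := D.card_X
  rw [show p - 1 = D.Y.card * e by omega, Nat.mul_div_cancel _ D.e_pos, Finset.card_disjUnion]
  omega

open Classical in
theorem blk_sub {p e : ℕ} (D : Data G p e) :
    D.X.disjUnion D.Y D.disj ⊆ Finset.univ.erase (irrOne G) := fun χ hχ => by
  simpa using D.ne_one (Finset.mem_disjUnion.1 hχ)

variable [IsSimpleGroup G]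

theorem exists_D (hG : ¬ IsMulCommutative G) {p e c : ℕ} (h : SD (TT G) (p, e, c))
    (h' : sdOK (Nat.card G) (p, e, c) = true) : ∃ (_ : Fact p.Prime) (P : Sylow p G) (x : G)
      (D : Data G p e), p ≠ 2 ∧ Nat.card P = p ∧ orderOf x = p ∧ cc x = p * c ∧
      Nat.card (centralizer ((P : Subgroup G) : Set G)) = p * c ∧
      Nat.card G = Nat.card G / (p * c * e) * (p * c * e) ∧ ∃ θ, θ ∈ D.Y := by
  simp only [sdOK, Bool.and_eq_true, bne_iff_ne] at h'
  have := Fact.mk (prime_of_primeB h'.1.1)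
  obtain ⟨x, -, hx⟩ := mem_TT.1 h.1
  obtain ⟨h1, h2⟩ := Prod.mk.inj hx
  obtain ⟨P, h3, h4, -, h5, h6, -⟩ := syl_data hG h2 fun h => h'.2 (Nat.mod_eq_zero_of_dvd h)
  obtain rfl : au x = e := Nat.eq_of_mul_eq_mul_right
    (show 0 < cnt (TT G) p from Multiset.countP_pos.2 ⟨_, h.1, rfl⟩) (h5.trans h.2.symm)
  obtain ⟨D⟩ := hasData_of_simple hG p h'.1.2 P h4
  rw [h3] at D
  refine ⟨this, P, x, D, h'.1.2, h4, h2, h1, by rw [h3, CL.Small.centralizer_zpowers_eq]; exact h1,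
    (Nat.div_mul_cancel ?_).symm, D.Y_nonempty⟩
  exact Dvd.intro_left _ (h1 ▸ h6.symm)

theorem fin2_of (hG : ¬ IsMulCommutative G) {w : ℕ × ℕ × ℕ} (h : SD (TT G) w)
    (h' : sdOK (Nat.card G) w = true) : fin2 (Nat.card G) (FD G) w = true := by
  classical
  obtain ⟨p, e, c⟩ := w
  obtain ⟨_, P, x, D, h1, h2, h3, h4, h5, h6, θ, hθ⟩ := exists_D hG h h'
  simp only [fin2, Bool.and_eq_true, Bool.or_eq_true, bne_iff_ne, beq_iff_eq]
  refine ⟨or_iff_not_imp_left.2 fun h7 => ?_, D.degB hG h1 P h2 h5 h6 hθ (decide_eq_true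
    fun y _ => Multiset.count_le_of_le _ ?_)⟩
  · obtain rfl : c = 1 := not_not.1 h7
    rw [← card_blk D, FD, Multiset.filter_map, Multiset.card_map, ← Finset.filter_val,
      Finset.card_val]
    congr 2
    ext χ
    simp only [Finset.mem_filter, Function.comp, ne_eq, ← Nat.dvd_iff_mod_eq_zero]
    refine ⟨fun h8 => ?_, fun h8 => ⟨blk_sub D h8, D.not_dvd_deg h3 (Finset.mem_disjUnion.1 h8)⟩⟩
    by_contra h9
    rw [Finset.mem_disjUnion, not_or] at h9
    exact h8.2 (D.dvd_of_notMem h3 (h4.trans (mul_one p)) (Finset.ne_of_mem_erase h8.1) h9.1 h9.2)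
  · rw [blk_eq D hθ]
    exact Multiset.map_le_map (Finset.val_le_iff.2 (blk_sub D))

omit [IsSimpleGroup G] in
theorem finR_of {w : ℕ × ℕ × ℕ} (h : SR (TT G) w) (h' : srOK (Nat.card G) w = true) :
    finR (FD G) w = true := by
  classical
  obtain ⟨q, Q, c⟩ := w
  simp only [srOK, Bool.and_eq_true, beq_iff_eq] at h'
  have hq := prime_of_primeB h'.1.1
  have := Fact.mk hq
  obtain ⟨x, -, hx⟩ := mem_TT.1 h.1
  obtain ⟨h1, h2⟩ : cc x = c ∧ orderOf x = q := Prod.mk.inj hx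
  obtain ⟨j, -, rfl⟩ := (Nat.dvd_prime_pow hq).1 (Nat.dvd_of_mod_eq_zero h'.1.2)
  obtain ⟨H, hH⟩ := Sylow.exists_subgroup_card_pow_prime q (Nat.dvd_of_mod_eq_zero h'.2)
  have h3 : ∀ y ∈ H, y ≠ 1 → IsConj x y := fun y hy hy1 => by
    refine isConj_of_cnt hq.one_lt.ne' h.2.1 h2 ?_
    obtain ⟨i, -, hi⟩ := (Nat.dvd_prime_pow hq).1 (hH ▸ CL.Small.orderOf_dvd_card_of_mem hy)
    rcases i with _ | _ | i
    · exact absurd (by simpa using hi) hy1
    · simpa using hi
    · obtain ⟨z, hz, -⟩ := exists_pow y (d := q * q) (hi ▸ Dvd.intro (q ^ i) (by ring))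
      have := hq.one_lt
      exact absurd hz (Multiset.countP_eq_zero.1 h.2.2 _ (pair_mem (x := z) (by nlinarith)))
  refine decide_eq_true fun d hd => ?_
  obtain ⟨χ, hχ, rfl⟩ := Multiset.mem_map.1 hd
  have h4 := Finset.ne_of_mem_erase hχ
  obtain ⟨a, ha⟩ := χ.2.isCharacter.isGen.exists_int_of_isConj (g := x) fun k hk =>
    isConj_of_cnt hq.one_lt.ne' h.2.1 h2 (by
      rw [← h2]
      exact (Nat.Coprime.coprime_dvd_left (orderOf_dvd_natCard x) hk.symm).orderOf_pow)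
  have h5 := card_dvd_of_vanish (φ := χ.1 - a • fun _ => (1 : ℂ))
    (χ.2.isCharacter.isGen.sub (isGen_one.zsmul a)) H (fun y hy hy1 => by
      simp [← χ.2.isCharacter.isClassFunction.eq_of_isConj (h3 y hy hy1), ha])
    (n := charDegree χ.1 - a) (by simp [χ.2.apply_one_eq_charDegree])
  have h6 := sum_norm_sq_eq_card_centralizer x
  rw [← Finset.add_sum_erase _ _ (Finset.mem_univ (irrOne G)), ← Finset.add_sum_erase _ _ hχ,
    ha] at h6
  have h7 : (0 : ℝ) ≤ ∑ ψ ∈ (Finset.univ.erase (irrOne G)).erase χ, ‖ψ.1 x‖ ^ 2 := by positivity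
  have h8 : a.natAbs * a.natAbs < c := by
    rw [← h1, cc]
    simp only [irrOne_apply, norm_one, Complex.norm_intCast, sq_abs] at h6
    have h8 : ((a * a : ℤ) : ℝ) < (Nat.card (centralizer ({x} : Set G)) : ℤ) := by
      push_cast
      nlinarith
    have h9 := Int.cast_lt.1 h8
    rw [← Int.natAbs_mul_self] at h9
    exact_mod_cast h9
  rw [hH] at h5
  refine ⟨a.natAbs, List.mem_range.2 (lt_of_le_of_lt (Nat.le_mul_self _) h8), h8, ?_⟩
  rcases Int.natAbs_eq a with h9 | h9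
  · rw [h9] at h5
    exact Or.inl ((Nat.modEq_iff_dvd.2 h5).symm)
  · rw [h9, sub_neg_eq_add] at h5
    exact Or.inr (Nat.mod_eq_zero_of_dvd (by exact_mod_cast h5))

theorem surv2_of (hG : ¬ IsMulCommutative G) {D S : List (ℕ × ℕ × ℕ)} (hD : ∀ w ∈ D, SD (TT G) w)
    (hS : ∀ w ∈ S, SR (TT G) w) : surv2 (Nat.card G) (Nat.card (ConjClasses G)) D S = true := by
  classical
  rcases D with _ | ⟨⟨p, e, c⟩, E⟩
  · rfl
  simp only [surv2, Bool.or_eq_true, Bool.not_eq_true', Bool.and_eq_true, decide_eq_true_eq]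
  refine or_iff_not_imp_left.2 fun h => ?_
  simp only [Bool.not_eq_false, Bool.and_eq_true, List.all_eq_true] at h
  obtain ⟨_, P, x, D, h1, h2, h3, h4, h5, h6, θ, hθ⟩ := exists_D hG (hD (p, e, c) List.mem_cons_self)
    (h.1 (p, e, c) List.mem_cons_self)
  set Z := Finset.univ.erase (irrOne G) \ D.X.disjUnion D.Y D.disj
  have h7 : Z.card + (e + (p - 1) / e) = Nat.card (ConjClasses G) := by
    rw [← card_blk D, ← add_assoc, Finset.card_sdiff_add_card_eq_card (blk_sub D),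
      Finset.card_erase_add_one (Finset.mem_univ _), ← Cfsg.Agent.S0133.result,
      Nat.card_eq_fintype_card, Finset.card_univ]
  refine ⟨by omega, D.degB hG h1 P h2 h5 h6 hθ ?_⟩
  rw [Bool.or_eq_true, bne_iff_ne]
  refine or_iff_not_imp_left.2 fun h8 => ?_
  obtain rfl : c = 1 := not_not.1 h8
  have h9 : blk p e D.sdeg (D.ε * charDegree θ.1) +
      (Z.val.map fun χ => (charDegree χ.1 : ℤ)).map Int.natAbs = FD G := by
    rw [blk_eq D hθ, Multiset.map_map, FD,
      ← tsub_add_cancel_of_le (Finset.val_le_iff.2 (blk_sub D)), Multiset.map_add, add_comm,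
      ← Finset.sdiff_val]
    rfl
  have h10 : 1 + ((FD G).map (· ^ 2)).sum = Nat.card G := by
    rw [← CL.Ord.sum_deg_sq, ← Finset.add_sum_erase _ _ (Finset.mem_univ (irrOne G)), FD,
      Multiset.map_map, Finset.sum_eq_multiset_sum,
      (irrOne G).2.isCharacter.charDegree_eq_one_iff.2 (irrOne_apply 1)]
    rfl
  refine go_of (s := Z.val.map fun χ => (charDegree χ.1 : ℤ)) (by simp; omega) (fun y hy => ?_)
    ?_ fun l hl => ?_
  · obtain ⟨χ, hχ, rfl⟩ := Multiset.mem_map.1 hy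
    obtain ⟨h11, h12⟩ := Finset.mem_sdiff.1 hχ
    rw [Finset.mem_disjUnion, not_or] at h12
    refine List.mem_map.2 ⟨_, List.mem_filter.2 ⟨List.mem_range.2 (lt_isqrt ?_), ?_⟩, rfl⟩
    · simpa [sq] using CL.Ord.deg_sq_le χ
    · simpa [← Nat.dvd_iff_mod_eq_zero] using ⟨D.dvd_of_notMem h3 (h4.trans (mul_one p))
        (Finset.ne_of_mem_erase h11) h12.1 h12.2, χ.2.charDegree_dvd_card⟩
  · rw [← h10, ← h9, Multiset.map_add, Multiset.sum_add, add_assoc, Multiset.map_map (· ^ 2)]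
    rfl
  · rw [← Multiset.map_coe, hl, Multiset.coe_nil, zero_add, h9]
    simp only [Bool.and_eq_true, beq_iff_eq, List.all_eq_true]
    exact ⟨⟨h10, fun w hw => fin2_of hG (hD w (List.mem_cons_of_mem _ hw))
      (h.1 w (List.mem_cons_of_mem _ hw))⟩, fun w hw => finR_of (hS w hw) (h.2 w hw)⟩

end CL.Cls
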