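import Cfsg.Agent.INV.Cls.Step
import Cfsg.Agent.INV.Def1
import Cfsg.Agent.INV.InvCalc
import Cfsg.Agent.FGS.FrobSol
import Cfsg.Agent.S0238

/-! The class data of a finite group. -/

set_option autoImplicit false
open Cfsg Subgroup

namespace CL.Cls

variable {G : Type*} [Group G]

/-- the order of the centralizer -/
noncomputable def cc (x : G) : ℕ := Nat.card (centralizer ({x} : Set G))

/-- a representative of a class -/
noncomputable def rp (C : ConjClasses G) : G := Quotient.out C

theorem mk_out (C : ConjClasses G) : ConjClasses.mk (rp C) = C := Quotient.out_eq C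

variable [Finite G]

open Classical in
/-- the nontrivial classes -/
noncomputable def NC (G : Type*) [Group G] [Finite G] : Finset (ConjClasses G) :=
  (Fintype.ofFinite (ConjClasses G)).elems.erase (ConjClasses.mk 1)

/-- the pairs (centralizer order, element order) of the nontrivial classes -/
noncomputable def TT (G : Type*) [Group G] [Finite G] : Multiset (ℕ × ℕ) :=
  (NC G).val.map fun C => (cc (rp C), orderOf (rp C))

theorem mk_mem_NC {x : G} : ConjClasses.mk x ∈ NC G ↔ x ≠ 1 := by
  simp [NC, Fintype.complete, ConjClasses.mk_eq_mk_iff_isConj]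

omit [Finite G] in
theorem pair_out {x : G} {C : ConjClasses G} (h : ConjClasses.mk x = C) :
    (cc (rp C), orderOf (rp C)) = (cc x, orderOf x) := by
  have := ConjClasses.mk_eq_mk_iff_isConj.1 ((mk_out C).trans h.symm)
  exact Prod.ext (CL.Inv.card_centralizer_eq_of_isConj this) (CL.Inv.orderOf_eq_of_isConj this)

theorem mem_TT {y : ℕ × ℕ} : y ∈ TT G ↔ ∃ x : G, x ≠ 1 ∧ (cc x, orderOf x) = y := by
  simp only [TT, Multiset.mem_map, Finset.mem_val]
  exact ⟨fun ⟨C, hC, h⟩ => ⟨_, mk_mem_NC.1 (by rwa [mk_out]), h⟩,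
    fun ⟨x, hx, h⟩ => ⟨_, mk_mem_NC.2 hx, (pair_out rfl).trans h⟩⟩

theorem pair_mem {x : G} (h : 1 < orderOf x) : (cc x, orderOf x) ∈ TT G :=
  mem_TT.2 ⟨x, by rintro rfl; simp at h, rfl⟩

theorem card_TT : (TT G).card + 1 = Nat.card (ConjClasses G) := by
  classical
  rw [TT, Multiset.card_map, Finset.card_val, NC,
    Finset.card_erase_add_one (@Fintype.complete _ (Fintype.ofFinite _) _),
    @Nat.card_eq_fintype_card _ (Fintype.ofFinite _)]
  rfl

theorem cc_pos (x : G) : 0 < cc x := Nat.card_pos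

theorem sum_TT [Fintype G] [DecidableEq G] (f : ℕ × ℕ → ℚ) :
    ∑ x ∈ Finset.univ.erase (1 : G), f (cc x, orderOf x) * cc x =
      Nat.card G * ((TT G).map f).sum := by
  classical
  rw [← Finset.sum_fiberwise_of_maps_to (g := ConjClasses.mk) (t := NC G)
    (fun x hx => mk_mem_NC.2 (Finset.ne_of_mem_erase hx)), TT, Multiset.map_map,
    ← Finset.sum_eq_multiset_sum, Finset.mul_sum]
  refine Finset.sum_congr rfl fun C hC => ?_
  rw [Finset.sum_congr rfl (g := fun _ => f (cc (rp C), orderOf (rp C)) *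
    cc (rp C)) fun x hx => by
      have := pair_out (Finset.mem_filter.1 hx).2
      rw [← this, ← (Prod.mk.inj this).1], Finset.sum_const, nsmul_eq_mul,
    ← CL.Inv.card_isConj_mul_card_centralizer (rp C), Nat.subtype_card
      ((Finset.univ.erase (1 : G)).filter fun x => ConjClasses.mk x = C) fun x => ?_]
  · simp only [cc, Function.comp]
    push_cast
    ring
  · rw [Finset.mem_filter, ← ConjClasses.mk_eq_mk_iff_isConj, mk_out, eq_comm (a := C)]
    refine and_iff_right_of_imp fun h => ?_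
    simpa using mk_mem_NC.1 (h ▸ hC)

theorem card_eq_W (φ : ℕ → Prop) [DecidablePred φ] (h : ¬ φ 1) :
    (Nat.card {x : G // φ (orderOf x)} : ℚ) = Nat.card G * W ((TT G).filter fun y => φ y.2) := by
  classical
  have := Fintype.ofFinite G
  have h1 := sum_TT (G := G) fun y => if φ y.2 then (y.1 : ℚ)⁻¹ else 0
  have h2 : ∀ T : Multiset (ℕ × ℕ), (T.map fun y => if φ y.2 then (y.1 : ℚ)⁻¹ else 0).sum =
      W (T.filter fun y => φ y.2) := fun T => by
    induction T using Multiset.induction_on with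
    | empty => simp
    | cons y T ih =>
      rw [Multiset.map_cons, Multiset.sum_cons, ih, Multiset.filter_cons, W_add]
      split_ifs <;> simp [W]
  rw [← h2, ← h1, Finset.sum_congr rfl (g := fun x => if φ (orderOf x) then 1 else 0) fun x _ => by
    have : (cc x : ℚ) ≠ 0 := by exact_mod_cast (cc_pos x).ne'
    split_ifs <;> simp [this], Finset.sum_boole, Nat.subtype_card
      ((Finset.univ.erase (1 : G)).filter fun x => φ (orderOf x)) fun x => ?_]
  rw [Finset.mem_filter]
  refine and_iff_right_of_imp fun h' => ?_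
  simp only [Finset.mem_erase, Finset.mem_univ, and_true]
  rintro rfl
  exact h (by simpa using h')

theorem sum_cc [Fintype G] {d : ℕ} (h : d ≠ 1) :
    ∑ x : G with orderOf x = d, cc x = Nat.card G * cnt (TT G) d := by
  classical
  have h1 := sum_TT (G := G) fun y => if y.2 = d then 1 else 0
  have h2 : ∀ T : Multiset (ℕ × ℕ), (T.map fun y => if y.2 = d then (1 : ℚ) else 0).sum =
      cnt T d := fun T => by
    induction T using Multiset.induction_on with
    | empty => simp [cnt]
    | cons y T ih =>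
      rw [Multiset.map_cons, Multiset.sum_cons, ih, cnt, cnt, Multiset.countP_cons]
      split_ifs <;> simp [add_comm]
  rw [h2, Finset.sum_erase _ (by simp [h.symm])] at h1
  simp only [ite_mul, one_mul, zero_mul, ← Finset.sum_filter] at h1
  exact_mod_cast h1

theorem cnt_eq (d : ℕ) : cnt (TT G) d =
    ((NC G).filter fun C => orderOf (rp C) = d).card := by
  rw [cnt, TT, Multiset.countP_map]
  rfl

theorem isConj_of_cnt {d : ℕ} (hd : d ≠ 1) (h : cnt (TT G) d = 1) {x y : G} (hx : orderOf x = d)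
    (hy : orderOf y = d) : IsConj x y := by
  have key : ∀ x : G, orderOf x = d → ConjClasses.mk x ∈
      (NC G).filter fun C => orderOf (rp C) = d := fun x hx =>
    Finset.mem_filter.2 ⟨mk_mem_NC.2 (by rintro rfl; exact hd (by simp [← hx])),
      (Prod.mk.inj (pair_out rfl)).2.trans hx⟩
  rw [cnt_eq] at h
  exact ConjClasses.mk_eq_mk_iff_isConj.1 (Finset.card_le_one.1 h.le _ (key x hx) _ (key y hy))

theorem TT_sum : (Nat.card G : ℚ)⁻¹ + W (TT G) = 1 := by
  classical
  have h1 := card_eq_W (G := G) (· ≠ 1) (by simp)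
  rw [Multiset.filter_eq_self.2 fun y hy => by
    obtain ⟨x, hx, rfl⟩ := mem_TT.1 hy
    simpa using hx] at h1
  have := Fintype.ofFinite G
  rw [Nat.subtype_card (Finset.univ.erase (1 : G)) (by simp), Finset.card_erase_of_mem (by simp),
    Finset.card_univ, ← Nat.card_eq_fintype_card, Nat.cast_sub Nat.card_pos] at h1
  have h2 : (Nat.card G : ℚ) ≠ 0 := by exact_mod_cast Nat.card_pos.ne'
  field_simp
  push_cast at h1
  linarith

omit [Finite G] in
theorem cc_dvd {x y : G} (h : ∀ g, Commute x g → Commute y g) : cc x ∣ cc y :=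
  card_dvd_of_le fun g hg => CL.Inv.mem_centralizer_singleton.2
    (h g (CL.Inv.mem_centralizer_singleton.1 hg).symm).symm

theorem exists_pow (x : G) {d : ℕ} (hd : d ∣ orderOf x) : ∃ z : G, orderOf z = d ∧
    ∀ g, Commute x g → Commute z g :=
  ⟨x ^ (orderOf x / d), orderOf_pow_orderOf_div (orderOf_pos x).ne' hd, fun _ h => h.pow_left _⟩

theorem exists_dp (x : G) {p : ℕ} (hp : p.Prime) (h1 : p ∣ cc x) (h2 : ¬ p ∣ orderOf x) :
    ∃ w : G, orderOf w = p * orderOf x ∧ cc w ∣ cc x ∧ ¬ p ∣ cc x / cc w := by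
  have := Fact.mk hp
  obtain ⟨Q⟩ : Nonempty (Sylow p (centralizer ({x} : Set G))) := inferInstance
  have hc : Nat.card ((Q : Subgroup _).map (centralizer ({x} : Set G)).subtype) = Nat.card Q :=
    card_map_of_injective (subtype_injective _)
  obtain ⟨z, hz, hz1, hz2⟩ := CL.Small.center_inf_ne_bot
    (Q.isPGroup'.map (centralizer ({x} : Set G)).subtype) fun h => by
      rw [h, card_bot] at hc
      exact hp.one_lt.ne' (Nat.dvd_one.1 (hc ▸ Q.dvd_card_of_dvd_card h1))
  obtain ⟨k, hk⟩ := (IsPGroup.iff_orderOf.1 (Q.isPGroup'.map (centralizer ({x} : Set G)).subtype))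
    ⟨z, hz⟩
  rw [← orderOf_coe] at hk
  obtain ⟨u, hu, hu'⟩ := exists_pow z (d := p) (hk ▸ dvd_pow_self p (by
    rintro rfl
    exact hz1 (by simpa using hk)))
  have hx : ∀ y ∈ (Q : Subgroup _).map (centralizer ({x} : Set G)).subtype, Commute x y :=
    fun y hy => (CL.Inv.mem_centralizer_singleton.1 (map_subtype_le _ hy)).symm
  have h3 : Commute u x := hu' x (hx z hz).symm
  have h4 : cc (u * x) ∣ cc x := cc_dvd fun g hg => by
    have := (CL.Blk.isPPart_mul h3 ⟨1, by simp [hu]⟩ h2).commute_of_commute hp hg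
    simpa using this.inv_left.mul_left hg
  have h5 : Nat.card Q ∣ cc (u * x) := hc ▸ card_dvd_of_le fun y hy =>
    CL.Inv.mem_centralizer_singleton.2 ((hu' y (hz2 y hy).symm).mul_left (hx y hy)).symm
  refine ⟨u * x, by rw [h3.orderOf_mul_eq_mul_orderOf_of_coprime
    (hu ▸ hp.coprime_iff_not_dvd.2 h2), hu], h4, fun h6 => Q.not_dvd_index (h6.trans ?_)⟩
  obtain ⟨t, ht⟩ := h5
  obtain ⟨s, hs⟩ := h4
  have h7 := (Q : Subgroup (centralizer ({x} : Set G))).card_mul_index
  rw [hs, Nat.mul_div_cancel_left _ (cc_pos _)]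
  refine Dvd.intro_left t (Nat.eq_of_mul_eq_mul_left (Nat.card_pos (α := Q)) ?_)
  rw [← mul_assoc, ← ht, ← hs]
  exact h7.symm

theorem sq_dvd_cc (x : G) {p : ℕ} (hp : p.Prime) (hx : orderOf x = p) (h : p * p ∣ Nat.card G) :
    p * p ∣ cc x := by
  have := Fact.mk hp
  have hx1 : x ≠ 1 := by
    rintro rfl
    exact hp.one_lt.ne (by simp [← hx])
  obtain ⟨P, hP⟩ := CL.Small.exists_sylow_mem (p := p) (k := 1) (x := x) (by simp [hx])
  obtain ⟨z, hz, hz1, hz2⟩ := CL.Small.center_inf_ne_bot P.isPGroup' fun h =>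
    hx1 (by simpa [h] using hP)
  have hxK : x ∈ centralizer ({x} : Set G) ⊓ P := ⟨CL.Inv.mem_centralizer_singleton.2 rfl, hP⟩
  obtain ⟨j, hj⟩ := (P.isPGroup'.to_inf_right (H := centralizer ({x} : Set G))).exists_card_eq
  refine dvd_trans ?_ (card_dvd_of_le (inf_le_left (b := (P : Subgroup G))))
  rw [hj]
  rcases j with _ | _ | j
  · exact absurd (by simpa [card_eq_one.1 hj] using hxK) hx1
  · exfalso
    rw [zero_add, pow_one] at hj
    have h1 := CL.Small.eq_zpowers_of_card_prime hj
      ⟨CL.Inv.mem_centralizer_singleton.2 (hz2 x hP).symm, hz⟩ hz1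
    obtain ⟨i, hi⟩ := h1 ▸ hxK
    have h2 : (P : Subgroup G) ≤ centralizer ({x} : Set G) := fun y hy =>
      CL.Inv.mem_centralizer_singleton.2 (hi ▸ (show Commute y z from hz2 y hy).zpow_right i)
    rw [inf_eq_right.2 h2] at hj
    exact CL.D1.not_sq_dvd P hj (by rwa [sq])
  · exact Dvd.intro (p ^ j) (by ring)

end CL.Cls
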