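import Cfsg.Agent.INV.Cls.Grp1
import Cfsg.Agent.S0204

/-! The class data of a finite simple group are good. -/

set_option autoImplicit false
open Cfsg Subgroup

namespace CL.Cls

variable {G : Type*} [Group G] [Finite G]

/-- the order of the automizer of `⟨x⟩` -/
noncomputable def au (x : G) : ℕ :=
  (centralizer (zpowers x : Set G)).relIndex (normalizer (zpowers x : Set G))

omit [Finite G] in
theorem card_range_au (x : G) : Nat.card (zpowers x).normalizerMonoidHom.range = au x := by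
  rw [← index_ker, normalizerMonoidHom_ker]
  rfl

theorem exists_orderOf_au {x : G} {p : ℕ} (hp : p.Prime) (hx : orderOf x = p) :
    ∃ g : G, orderOf g = au x := by
  have := Fact.mk hp
  have : IsCyclic (MulAut (zpowers x)) := by
    have e := IsCyclic.mulAutMulEquiv (zpowers x)
    rw [Nat.card_zpowers, hx] at e
    exact isCyclic_of_surjective e.symm e.symm.surjective
  obtain ⟨⟨_, g, rfl⟩, hg⟩ := IsCyclic.exists_ofOrder_eq_natCard
    (α := (zpowers x).normalizerMonoidHom.range)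
  rw [card_range_au, ← orderOf_coe] at hg
  obtain ⟨z, hz, -⟩ := exists_pow (g : G) (d := au x) (by
    rw [orderOf_coe, ← hg]
    exact orderOf_map_dvd _ _)
  exact ⟨z, hz⟩

theorem le_au_mul {x : G} {p : ℕ} (hp : p.Prime) (hx : orderOf x = p) :
    p - 1 ≤ au x * cnt (TT G) p := by
  classical
  have := Fact.mk hp
  have := Fintype.ofFinite (zpowers x)
  have := Fintype.ofFinite (zpowers x).normalizerMonoidHom.range
  have h1 : Nat.card (zpowers x) = p := by rw [Nat.card_zpowers, hx]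
  rw [cnt_eq, show p - 1 = (Finset.univ.erase (1 : zpowers x)).card by
    rw [Finset.card_erase_of_mem (Finset.mem_univ _), Finset.card_univ, ← Nat.card_eq_fintype_card,
      h1]]
  refine Finset.card_le_mul_card_image_of_maps_to
    (f := fun y : zpowers x => ConjClasses.mk (y : G))
    (fun y hy => ?_) _ fun C _ => ?_
  · have h2 : (y : G) ≠ 1 := by simpa using hy
    exact Finset.mem_filter.2 ⟨mk_mem_NC.2 h2, (Prod.mk.inj (pair_out rfl)).2.trans
      (CL.Small.orderOf_eq_of_card_prime h1 y.2 h2)⟩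
  · rcases Finset.eq_empty_or_nonempty ((Finset.univ.erase (1 : zpowers x)).filter
      fun y : zpowers x => ConjClasses.mk (y : G) = C) with h | ⟨y, hy⟩
    · simp [h]
    rw [← card_range_au, Nat.card_eq_fintype_card, ← Finset.card_univ]
    refine Finset.card_le_card_of_surjOn (fun α => α.1 y) fun z hz => ?_
    simp only [Finset.coe_filter, Finset.mem_filter, Finset.mem_erase, Set.mem_ofPred_eq] at hy hz
    obtain ⟨g, hg⟩ := isConj_iff.1 (ConjClasses.mk_eq_mk_iff_isConj.1 (hy.2.trans hz.2.symm))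
    have h2 := CL.Small.eq_zpowers_of_card_prime h1 y.2 (by simpa using hy.1.1)
    have h3 : g ∈ normalizer (zpowers x : Set G) := by
      refine mem_normalizer_fintype fun w hw => ?_
      obtain ⟨i, rfl⟩ : w ∈ zpowers (y : G) := h2 ▸ hw
      simp only [← conj_zpow, hg]
      exact zpow_mem z.2 i
    exact ⟨⟨_, ⟨g, h3⟩, rfl⟩, by simp, Subtype.ext hg⟩

theorem syl_data [IsSimpleGroup G] (hG : ¬ IsMulCommutative G) {x : G} {p : ℕ} [hp : Fact p.Prime]
    (hx : orderOf x = p) (h : ¬ p * p ∣ Nat.card G) :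
    ∃ P : Sylow p G, (P : Subgroup G) = zpowers x ∧ Nat.card P = p ∧ 1 < au x ∧ au x * cnt (TT G) p = p - 1 ∧
      Nat.card G = Nat.card (Sylow p G) * (cc x * au x) ∧ ∀ y : G, orderOf y = p → cc y = cc x := by
  classical
  have := Fintype.ofFinite G
  obtain ⟨R⟩ : Nonempty (Sylow p G) := inferInstance
  obtain ⟨m, hm⟩ : p ∣ Nat.card G := hx ▸ orderOf_dvd_natCard x
  have hR : Nat.card R = p := by
    simpa using CL.Small.card_sylow_eq_of_factor R (a := 1) (m := m) (by simpa using hm)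
      fun h' => h (hm ▸ Nat.mul_dvd_mul_left _ h')
  obtain ⟨P, hP⟩ := CL.D1.exists_sylow_zpowers R hR hx
  have hP' : Nat.card P = p := (CL.Small.card_sylow_eq_card_sylow P R).trans hR
  obtain ⟨e, k, h1, -, h2, -, h3, h4⟩ := CL.Small.prime_sylow_data hG P hP'
  have h5 : ∀ y : G, orderOf y = p → cc y = p * k := fun y hy =>
    (CL.D1.card_centralizer_eq P hP' hy).trans h2
  rw [hP] at h3
  obtain rfl : au x = e := h3
  refine ⟨P, hP, hP', h1, ?_, by rw [h5 x hx, h4], fun y hy => by rw [h5 x hx, h5 y hy]⟩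
  have h6 := sum_cc (G := G) hp.out.one_lt.ne'
  rw [Finset.sum_congr rfl fun y hy => h5 y (Finset.mem_filter.1 hy).2, Finset.sum_const,
    smul_eq_mul, ← Nat.subtype_card (p := fun y : G => orderOf y = p) _ (by simp),
    CL.Small.card_orderOf_eq_prime P hP', h4] at h6
  have h7 : 0 < Nat.card (Sylow p G) * (p * k) :=
    Nat.mul_pos Nat.card_pos (h5 x hx ▸ cc_pos x)
  exact Nat.eq_of_mul_eq_mul_left h7 (by rw [mul_right_comm _ _ (p - 1), h6]; ring)

theorem sec_iff {p j o : ℕ} (hp : p.Prime) {a m : ℕ} (hm : ¬ p ∣ m) (ho : o = p ^ a * m) :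
    (p ^ j ∣ o ∧ ¬ p * p ^ j ∣ o) ↔ a = j := by
  have key : ∀ i, p ^ i ∣ o ↔ i ≤ a := fun i => by
    rw [ho, (Nat.Coprime.pow_left i (hp.coprime_iff_not_dvd.2 hm)).dvd_mul_right,
      Nat.pow_dvd_pow_iff_le_right hp.one_lt]
  rw [← pow_succ', key, key]
  omega

theorem cap_TT {p j : ℕ} (hp : p.Prime) (hj : 0 < j) :
    W (sct p (p ^ j) (TT G)) * (p ^ j : ℕ) ≤ cnt (TT G) (p ^ j) := by
  classical
  have := Fintype.ofFinite G
  have h0 : 1 < p ^ j := Nat.one_lt_pow hj.ne' hp.one_lt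
  have h1 := card_eq_W (G := G) (fun o => p ^ j ∣ o ∧ ¬ p * p ^ j ∣ o)
    fun h => h0.ne' (Nat.dvd_one.1 h.1)
  have h2 := sum_cc (G := G) h0.ne'
  choose π hπ using CL.Blk.exists_isPPart (G := G) hp
  have h3 : ∀ x : G, (p ^ j ∣ orderOf x ∧ ¬ p * p ^ j ∣ orderOf x) → orderOf (π x) = p ^ j := by
    intro x hx
    obtain ⟨y, h3, h4, ⟨a, h5⟩, h6⟩ := hπ x
    rw [h5, (sec_iff (a := a) hp h6 ?_).1 hx]
    rw [← h5, ← h4.orderOf_mul_eq_mul_orderOf_of_coprime
      (h5 ▸ Nat.Coprime.pow_left a (hp.coprime_iff_not_dvd.2 h6)), h3]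
  have h4 : ((Finset.univ.filter fun x : G => p ^ j ∣ orderOf x ∧ ¬ p * p ^ j ∣ orderOf x) ×ˢ
      Finset.range (p ^ j)).card ≤ ((Finset.univ.filter fun y : G => orderOf y = p ^ j).sigma
        fun y => Finset.univ.filter fun w : G => w ∈ centralizer ({y} : Set G)).card := by
    refine Finset.card_le_card_of_injOn (fun z => ⟨π z.1, π z.1 ^ z.2 * ((π z.1)⁻¹ * z.1)⟩)
      (fun z hz => ?_) fun z hz w hw h => ?_
    · simp only [Finset.coe_product, Finset.coe_filter, Set.mem_prod, Finset.mem_univ, true_and,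
        Set.mem_ofPred_eq] at hz
      simp only [Finset.coe_sigma, Set.mem_sigma_iff, Finset.coe_filter, Finset.mem_univ, true_and,
        Set.mem_ofPred_eq]
      have h5 : π z.1 ∈ centralizer ({π z.1} : Set G) := CL.Inv.mem_centralizer_singleton.2 rfl
      exact ⟨h3 _ hz.1, mul_mem (pow_mem h5 _) (mul_mem (inv_mem h5) (hπ _).mem_centralizer)⟩
    · simp only [Finset.coe_product, Finset.coe_filter, Set.mem_prod, Finset.mem_univ, true_and,
        Set.mem_ofPred_eq, Finset.coe_range, Set.mem_Iio] at hz hw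
      simp only [Sigma.mk.injEq, heq_eq_eq] at h
      have key : ∀ (x : G) (i : ℕ), IsPPart p (π x ^ i * ((π x)⁻¹ * x)) (π x ^ i) := fun x i =>
        CL.Blk.isPPart_mul (((Commute.refl _).inv_right.mul_right (hπ x).commute).pow_left i)
          (by
            obtain ⟨a, ha⟩ := (hπ x).pElt
            obtain ⟨b, -, hb⟩ := (Nat.dvd_prime_pow hp).1 (ha ▸ orderOf_pow_dvd (x := π x) i)
            exact ⟨b, hb⟩) (hπ x).pReg
      have h5 := (key z.1 z.2).unique hp (h.2 ▸ key w.1 w.2)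
      have h6 := h.2
      rw [h5, h.1] at h6
      rw [h.1] at h5
      exact Prod.ext (by simpa using h6) (pow_injOn_Iio_orderOf (h3 _ hw.1 ▸ hz.2)
        (h3 _ hw.1 ▸ hw.2) h5)
  rw [Finset.card_product, Finset.card_range, Finset.card_sigma, Finset.sum_congr rfl
    (g := fun y => cc y) fun y _ => (Nat.subtype_card _ (by simp)).symm, h2,
    ← Nat.subtype_card (p := fun x : G => p ^ j ∣ orderOf x ∧ ¬ p * p ^ j ∣ orderOf x) _
      (by simp)] at h4
  have h5 : (0 : ℚ) < Nat.card G := by exact_mod_cast Nat.card_pos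
  refine le_of_mul_le_mul_left ?_ h5
  rw [← mul_assoc, sct, ← h1]
  exact_mod_cast h4

theorem int_TT {p j : ℕ} (hp : p.Prime) (hj : 0 < j) :
    ∃ m a : ℕ, W (sct p (p ^ j) (TT G)) * p ^ m = a := by
  classical
  have := Fintype.ofFinite G
  have h0 : 1 < p ^ j := Nat.one_lt_pow hj.ne' hp.one_lt
  have h1 := card_eq_W (G := G) (fun o => p ^ j ∣ o ∧ ¬ p * p ^ j ∣ o)
    fun h => h0.ne' (Nat.dvd_one.1 h.1)
  obtain ⟨v, m, hm, hn⟩ := Nat.exists_eq_pow_mul_and_not_dvd (Nat.card_pos (α := G)).ne' p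
    hp.one_lt.ne'
  have key : ∀ (x : G) (i : ℕ), x ^ (p ^ i * m) = 1 ↔ ¬ p ^ (i + 1) ∣ orderOf x := fun x i => by
    obtain ⟨a, b, hb, ho⟩ := Nat.exists_eq_pow_mul_and_not_dvd (orderOf_pos x).ne' p hp.one_lt.ne'
    have h2 : b ∣ m :=
      (Nat.Coprime.pow_right v (hp.coprime_iff_not_dvd.2 hb).symm).dvd_of_dvd_mul_left (hn ▸ (Dvd.intro_left _ ho.symm).trans (orderOf_dvd_natCard x))
    rw [← orderOf_dvd_iff_pow_eq_one, ho,
      (Nat.Coprime.pow_left _ (hp.coprime_iff_not_dvd.2 hb)).dvd_mul_right,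
      Nat.pow_dvd_pow_iff_le_right hp.one_lt, not_le, Nat.lt_succ_iff]
    refine ⟨fun h => (Nat.pow_dvd_pow_iff_le_right hp.one_lt).1
      ((Nat.Coprime.pow_left _ (hp.coprime_iff_not_dvd.2 hm)).dvd_of_dvd_mul_right
        ((Dvd.intro _ rfl).trans h)), fun h => Nat.mul_dvd_mul (pow_dvd_pow _ h) h2⟩
  obtain ⟨j, rfl⟩ := Nat.exists_eq_succ_of_ne_zero hj.ne'
  have h2 : ∀ i, m ∣ (Finset.univ.filter fun x : G => ¬ p ^ (i + 1) ∣ orderOf x).card := fun i => by
    rw [← Nat.subtype_card (p := fun x : G => x ^ (p ^ i * m) = 1) _ (by simp [key])]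
    exact CL.FrobSol.dvd_card_pow_eq_one (Dvd.intro_left _ rfl) (Dvd.intro_left _ hn.symm)
  have h3 := Finset.card_filter_add_card_filter_not (s := Finset.univ.filter fun x : G =>
    ¬ p ^ (j + 1 + 1) ∣ orderOf x) fun x => p ^ (j + 1) ∣ orderOf x
  rw [Finset.filter_filter, Finset.filter_filter, Finset.filter_congr (p := fun x : G =>
    ¬ p ^ (j + 1 + 1) ∣ orderOf x ∧ ¬ p ^ (j + 1) ∣ orderOf x) (q := fun x : G =>
    ¬ p ^ (j + 1) ∣ orderOf x) fun x _ => and_iff_right_of_imp fun h h' =>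
      h ((pow_dvd_pow _ (Nat.le_succ _)).trans h')] at h3
  obtain ⟨a, ha⟩ := (Nat.dvd_add_left (h2 j)).1 (h3 ▸ h2 (j + 1))
  rw [Nat.subtype_card (Finset.univ.filter fun x : G => ¬ p ^ (j + 1 + 1) ∣ orderOf x ∧
    p ^ (j + 1) ∣ orderOf x) (by simp [pow_succ' p (j + 1), and_comm]), ha, hn] at h1
  have h4 : (m : ℚ) ≠ 0 := by
    rintro h
    exact hm (by simp [show m = 0 by exact_mod_cast h])
  refine ⟨v, a, mul_left_cancel₀ h4 ?_⟩
  push_cast at h1
  rw [h1, sct]
  ring

theorem good [IsSimpleGroup G] (hG : ¬ IsMulCommutative G) : Good (Nat.card G) (TT G) where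
  pos := Nat.card_pos
  sum := TT_sum
  one_lt y hy := by
    obtain ⟨x, hx, rfl⟩ := mem_TT.1 hy
    exact lt_of_le_of_ne (orderOf_pos x) (by simpa [eq_comm] using hx)
  dvd y hy := by
    obtain ⟨x, -, rfl⟩ := mem_TT.1 hy
    exact CL.Small.orderOf_dvd_card_of_mem (CL.Inv.mem_centralizer_singleton.2 rfl)
  dvdn y hy := by
    obtain ⟨x, -, rfl⟩ := mem_TT.1 hy
    exact card_subgroup_dvd_card _
  two_le y hy := by
    obtain ⟨x, hx, rfl⟩ := mem_TT.1 hy
    rw [← (centralizer ({x} : Set G)).index_mul_card]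
    exact Nat.mul_le_mul_right _ (one_lt_index_of_ne_top (CL.Small.centralizer_ne_top hG hx))
  pow y hy d hd hd1 := by
    obtain ⟨x, -, rfl⟩ := mem_TT.1 hy
    obtain ⟨z, rfl, hz⟩ := exists_pow x hd
    exact ⟨_, pair_mem hd1, rfl, cc_dvd hz⟩
  dp y hy p hp h1 h2 := by
    obtain ⟨x, -, rfl⟩ := mem_TT.1 hy
    obtain ⟨w, h3, h4⟩ := exists_dp x hp h1 h2
    exact ⟨_, pair_mem (x := w) (by
      have := Nat.mul_le_mul hp.two_le (orderOf_pos x)
      omega), h3, h4⟩
  four := by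
    obtain ⟨E, hE⟩ := Cfsg.Agent.S0204.result (G := G) fun h => hG inferInstance
    exact hE.card_four ▸ card_subgroup_dvd_card E
  sq y hy hp h := by
    obtain ⟨x, -, rfl⟩ := mem_TT.1 hy
    exact sq_dvd_cc x hp rfl h
  gal y hy hp := by
    obtain ⟨x, -, rfl⟩ := mem_TT.1 hy
    have := Fact.mk hp
    obtain ⟨g, hg⟩ := exists_orderOf_au hp rfl
    refine ⟨au x, CL.Small.relIndex_centralizer_dvd_of_card_prime _ (Nat.card_zpowers x),
      le_au_mul hp rfl, or_iff_not_imp_left.2 fun h => ⟨_, pair_mem (x := g) ?_, hg⟩⟩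
    have := orderOf_pos g
    omega
  syl y hy hp h := by
    obtain ⟨x, -, rfl⟩ := mem_TT.1 hy
    have := Fact.mk hp
    obtain ⟨g, hg⟩ := exists_orderOf_au hp rfl
    obtain ⟨-, -, -, h1, h2, -, h3⟩ := syl_data hG rfl h
    refine ⟨au x, h2, ⟨_, pair_mem (hg ▸ h1), hg⟩, fun z hz hz' => ?_⟩
    obtain ⟨w, -, rfl⟩ := mem_TT.1 hz
    exact h3 w hz'
  cap _ _ := cap_TT
  int _ _ := int_TT

/-- The Brauer--Fowler inequality. -/
theorem bf_TT {y : ℕ × ℕ} (hy : y ∈ TT G) (h : y.2 = 2) :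
    Nat.card G ≤ y.1 + (TT G).card * (y.1 * y.1) := by
  classical
  have := Fintype.ofFinite G
  obtain ⟨t, -, rfl⟩ := mem_TT.1 hy
  set S := Finset.univ.filter fun x : G => IsConj t x
  have h1 : S.card * cc t = Nat.card G := by
    rw [← Nat.subtype_card (p := fun x : G => IsConj t x) _ (by simp [S])]
    exact CL.Inv.card_isConj_mul_card_centralizer t
  have h2 : ∀ x ∈ S, orderOf x = 2 := fun x hx =>
    (CL.Inv.orderOf_eq_of_isConj (Finset.mem_filter.1 hx).2).symm.trans h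
  have h3 := Finset.card_eq_sum_card_fiberwise (f := fun z : G × G => z.1 * z.2) (s := S ×ˢ S)
    (t := Finset.univ) (by simp)
  rw [Finset.card_product, ← Finset.add_sum_erase _ _ (Finset.mem_univ 1)] at h3
  have h4 : ((S ×ˢ S).filter fun z : G × G => z.1 * z.2 = 1).card ≤ S.card :=
    Finset.card_le_card_of_injOn Prod.fst (fun z hz => by
      simp only [Finset.coe_filter, Finset.mem_product, Set.mem_ofPred_eq] at hz
      exact hz.1.1) fun z hz w hw h => by
        simp only [Finset.coe_filter, Set.mem_ofPred_eq] at hz hw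
        exact Prod.ext h (mul_left_cancel (hz.2.trans (h ▸ hw.2).symm))
  have h5 : ∑ x ∈ Finset.univ.erase (1 : G), ((S ×ˢ S).filter fun z : G × G =>
      z.1 * z.2 = x).card ≤ ∑ x ∈ Finset.univ.erase (1 : G), cc x :=
    Finset.sum_le_sum fun x _ => le_trans (by
      rw [Nat.subtype_card (Finset.univ.filter fun z : G × G =>
        orderOf z.1 = 2 ∧ orderOf z.2 = 2 ∧ z.1 * z.2 = x) (by simp)]
      refine Finset.card_le_card fun z hz => ?_
      simp only [Finset.mem_filter, Finset.mem_product] at hz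
      simpa using ⟨h2 _ hz.1.1, h2 _ hz.1.2, hz.2⟩) (Cfsg.Agent.S0238.result x).1
  have h6 := sum_TT (G := G) fun _ => 1
  simp only [one_mul, Multiset.map_const', Multiset.sum_replicate, nsmul_eq_mul, mul_one] at h6
  have h7 : ∑ x ∈ Finset.univ.erase (1 : G), cc x = Nat.card G * (TT G).card := by
    exact_mod_cast h6
  have h8 : 0 < S.card := Finset.card_pos.2 ⟨t, Finset.mem_filter.2 ⟨Finset.mem_univ _, IsConj.refl t⟩⟩
  rw [h7, ← h1] at h5
  have h9 : S.card ≤ 1 + cc t * (TT G).card := Nat.le_of_mul_le_mul_left (by nlinarith) h8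
  rw [← h1]
  simp only
  nlinarith [Nat.mul_le_mul_right (cc t) h9]

end CL.Cls
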