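import Cfsg.Agent.INV.Cls.Step

/-! The class equation search: soundness of the first phase. -/

set_option autoImplicit false

namespace CL.Cls

structure ParOK (n : ℕ) (T : Multiset (ℕ × ℕ)) (a : Par) : Prop where
  cmin : ∀ y ∈ T, a.cmin ≤ y.1
  c2 : ∀ y ∈ T, y.2 = 2 → a.c2 ≤ y.1
  nmin_pos : 0 < a.nmin
  nmin : a.nmin ≤ n
  N0 : n ∣ a.N0
  must : ∀ d ∈ a.must, ∃ y ∈ T, y.2 = d
  forb : ∀ y ∈ T, y.2 ∉ a.forb
  e66 : a.e66 = true → cnt T 2 = 1 → (6, 6) ∉ T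

def RelP : List (ℕ × ℕ) → Multiset (ℕ × ℕ) → Prop
  | [], M => M = 0
  | a :: Q, M => ∃ A B, M = A + B ∧ A.card = a.2 ∧ (∀ y ∈ A, y.2 = a.1) ∧ RelP Q B

/-- the invariant of the first phase -/
structure Inv1 (T : Multiset (ℕ × ℕ)) (P : List (ℕ × ℕ)) (Ps : List ℕ) (last rem : ℕ) : Prop where
  pos : 0 < last
  ent : ∀ a ∈ P, a.1 ≤ last ∧ a.2 = cnt T a.1 ∧ 0 < a.2
  cov : ∀ y ∈ T, y.2 ≤ last → ∃ a ∈ P, a.1 = y.2
  ex : ∃ M N, T = M + N ∧ RelP P M ∧ N.card = rem ∧ ∀ y ∈ N, last < y.2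
  pr : ∀ p ∈ Ps, p.Prime ∧ p ≤ last
  pr' : ∀ y ∈ T, y.2.Prime → y.2 ≤ last → y.2 ∈ Ps

variable {n : ℕ} {T : Multiset (ℕ × ℕ)} {a : Par} {P : List (ℕ × ℕ)} {Ps : List ℕ} {last rem : ℕ}

theorem exists_of_cnt {d : ℕ} (h : 0 < cnt T d) : ∃ y ∈ T, y.2 = d := Multiset.countP_pos.1 h

theorem eq_of_cnt {y z : ℕ × ℕ} (h : cnt T y.2 = 1) (hy : y ∈ T) (hz : z ∈ T) (h' : z.2 = y.2) :
    z = y := by
  obtain ⟨S, rfl⟩ := Multiset.exists_cons_of_mem hy
  refine (Multiset.mem_cons.1 hz).resolve_right fun h1 => ?_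
  have : 0 < cnt S y.2 := Multiset.countP_pos.2 ⟨z, h1, h'⟩
  rw [cnt, Multiset.countP_cons] at h
  simp only [if_true] at h
  rw [cnt] at this
  omega

theorem Inv1.exT (h : Inv1 T P Ps last rem) {b : ℕ × ℕ} (hb : b ∈ P) : ∃ y ∈ T, y.2 = b.1 :=
  exists_of_cnt ((h.ent b hb).2.1 ▸ (h.ent b hb).2.2)

theorem Inv1.lcm (hT : Good n T) (h : Inv1 T P Ps last rem) {y : ℕ × ℕ} (hy : y ∈ T)
    (h1 : ∀ z ∈ T, z.2 = y.2 → z.1 = y.1) : lcmO P y.2 ∣ y.1 :=
  lcmO_dvd (hT.dvd y hy) fun b hb hb' => by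
    obtain ⟨z, hz, hz'⟩ := h.exT hb
    obtain ⟨w, hw, h2, h3⟩ := hT.pow z hz y.2 (hz' ▸ hb') (hT.one_lt y hy)
    exact hz' ▸ (hT.dvd z hz).trans (h1 w hw h2 ▸ h3)

theorem Inv1.bas (hT : Good n T) (h : Inv1 T P Ps last rem) {y : ℕ × ℕ} (hy : y ∈ T)
    (hl : y.2 ≤ last) : bas P Ps y.2 (cnt T y.2) ∣ y.1 := by
  have h1 : cnd (Nat.beq (cnt T y.2) 1) (lcmO P y.2) y.2 ∣ y.1 := by
    rw [cnd_eq]
    split_ifs with h1
    · exact h.lcm hT hy fun z hz hz' => by rw [eq_of_cnt (by simpa using h1) hy hz hz']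
    · exact hT.dvd y hy
  rw [Cls.bas, frc_eq]
  generalize cnd (Nat.beq (cnt T y.2) 1) (lcmO P y.2) y.2 = b at h1 ⊢
  rw [cnd_eq, cnd_eq]
  split_ifs with h2 h3
  · have h2 : y.2 = 2 := by simpa using h2
    exact Nat.lcm_dvd h1 (by simpa [h2] using hT.sq y hy (h2 ▸ Nat.prime_two) (h2 ▸ hT.four))
  · simp only [an_iff, memN_iff, nt_iff, ok1, dv_iff, memO_iff] at h3
    have hp := (h.pr _ h3.1).1
    refine Nat.lcm_dvd h1 (hT.sq y hy hp ?_)
    by_contra h4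
    obtain ⟨e, h5, ⟨z, hz, h6⟩, -⟩ := hT.syl y hy hp h4
    have h7 : 0 < cnt T y.2 := Multiset.countP_pos.2 ⟨y, hy, rfl⟩
    refine h3.2 ⟨Dvd.intro_left _ h5, ?_, fun ⟨b, hb, hb'⟩ => ?_⟩
    · rw [← h5, Nat.mul_div_cancel _ h7, ← h6]
      refine h.cov z hz ?_
      have := Nat.le_mul_of_pos_right e h7
      omega
    · obtain ⟨w, hw, hw'⟩ := h.exT hb
      exact h4 (hb' ▸ hw' ▸ (hT.dvd w hw).trans (hT.dvdn w hw))
  · exact h1

theorem Inv1.low (hT : Good n T) (ha : ParOK n T a) (h : Inv1 T P Ps last rem) {y : ℕ × ℕ}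
    (hy : y ∈ T) (m : ℕ) : low a P Ps y.2 m ≤ y.1 := by
  rw [Cls.low, cnd_eq, cnd_eq, cnd_eq]
  split_ifs with h1 h2 h3
  · exact ha.c2 y hy (by simpa using h1)
  · simp only [an_iff, memN_iff] at h2
    have hp := (h.pr _ h2.2).1
    simp only [frc_eq, mn_eq, mx_eq]
    refine max_le ?_ (ha.cmin y hy)
    by_cases h4 : y.2 * y.2 ∣ n
    · exact (min_le_right _ _).trans (Nat.le_of_dvd (hT.cpos hy) (hT.sq y hy hp h4))
    · obtain ⟨e, -, -, h5⟩ := hT.syl y hy hp h4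
      exact (min_le_left _ _).trans (Nat.le_of_dvd (hT.cpos hy) (h.lcm hT hy h5))
  · simp only [an_iff, Nat.beq_eq] at h3
    have h4 : mult P 2 = cnt T 2 := mult_eq (mult_pos (by omega)) fun b hb hb' =>
      hb' ▸ (h.ent b hb).2.1
    have h5 := ha.e66 h3.2.1 (h4 ▸ h3.2.2)
    obtain ⟨c, hc⟩ := hT.dvd y hy
    have h6 := hT.cpos hy
    have h7 : y.1 ≠ 6 := fun h7 => h5 (by rwa [← show y = (6, 6) from Prod.ext h7 h3.1])
    rw [h3.1] at hc
    omega
  · exact ha.cmin y hy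

theorem RelP.mem {Q : List (ℕ × ℕ)} {M : Multiset (ℕ × ℕ)} (h : RelP Q M) {z : ℕ × ℕ}
    (hz : z ∈ M) : ∃ b ∈ Q, b.1 = z.2 := by
  induction Q generalizing M with
  | nil => simp [show M = 0 from h] at hz
  | cons b Q ih =>
    obtain ⟨A, B, rfl, -, h1, h2⟩ := h
    rcases Multiset.mem_add.1 hz with hz | hz
    · exact ⟨b, by simp, (h1 z hz).symm⟩
    · obtain ⟨c, hc, hc'⟩ := ih h2 hz
      exact ⟨c, List.mem_cons_of_mem _ hc, hc'⟩

theorem RelP.ub1 (hT : Good n T) (ha : ParOK n T a) (h : Inv1 T P Ps last rem)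
    {Q : List (ℕ × ℕ)} {M : Multiset (ℕ × ℕ)} (hQ : RelP Q M) (hP : ∀ b ∈ Q, b ∈ P)
    (hM : ∀ y ∈ M, y ∈ T) : KK * W M ≤ (ub1 a P Ps Q : ℕ) := by
  induction Q generalizing M with
  | nil => simp [show M = 0 from hQ]
  | cons b Q ih =>
    obtain ⟨A, B, rfl, h0, h1, h2⟩ := hQ
    have : Cls.ub1 a P Ps (b :: Q) = b.2 * KK / lb a P Ps b.1 b.2 + 1 + Cls.ub1 a P Ps Q := rfl
    obtain ⟨h3, h4, -⟩ := h.ent b (hP b (by simp))
    have key : ∀ y ∈ T, y.2 = b.1 → 0 < lb a P Ps b.1 b.2 ∧ lb a P Ps b.1 b.2 ≤ y.1 := by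
      intro y hy hy'
      have h5 := h.low hT ha hy b.2
      obtain ⟨v, hv⟩ := h.bas hT hy (hy' ▸ h3)
      have h6 := hT.cpos hy
      rw [hy', ← h4] at hv
      rw [hy'] at h5
      rw [hv] at h5 h6 ⊢
      rw [lb, frc_eq, mul_comm]
      exact ⟨Nat.mul_pos (Nat.pos_of_mul_pos_right h6) (Nat.succ_pos _), Nat.mul_le_mul_left _
        (ceil_le (Nat.pos_of_mul_pos_right h6) (Nat.pos_of_mul_pos_left h6) h5)⟩
    obtain ⟨z, hz, hz'⟩ := h.exT (hP b (by simp))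
    have h5 := W_le (key z hz hz').1 fun y hy =>
      (key y (hM y (Multiset.mem_add.2 (Or.inl hy))) (h1 y hy)).2
    have h6 := ih h2 (fun c hc => hP c (List.mem_cons_of_mem _ hc))
      fun y hy => hM y (Multiset.mem_add.2 (Or.inr hy))
    rw [h0] at h5
    rw [this, W_add, Nat.cast_add]
    linarith

theorem Inv1.stOK (hT : Good n T) (h : Inv1 T P Ps last rem) (hl : ∀ y ∈ T, y.2 ≤ last) {o b : ℕ}
    (hb0 : 0 < b) (hb : ∀ y ∈ T, y.2 = o → b ∣ y.1) : StOK T (mkSt P Ps o b) o := by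
  have h1 : ∀ p ∈ (mkSt P Ps o b).al, p.Prime := fun p hp => (h.pr p (mem_flt.1 hp).1).1
  refine ⟨fun y hy hy' z hz => ?_, fun p hp => ?_, fun p hp => ?_, fun p hp => ?_,
    fun z => Nat.mul_pos hb0 (nxs_pos h1 _)⟩
  · obtain ⟨v, hv⟩ := hb y hy hy'
    have h2 := hT.cpos hy
    rw [hv] at hz h2 ⊢
    have h3 := Nat.pos_of_mul_pos_left h2
    refine Nat.mul_le_mul_left _ (nxs_le h1 h3 (fun p hp hpv => ?_) (ceil_le hb0 h3 hz))
    have h4 : ∀ w ∈ T, p ∣ w.2 → p ∈ Ps := fun w hw hw' => by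
      obtain ⟨u, hu, rfl, -⟩ := hT.pow w hw p hw' hp.one_lt
      exact h.pr' u hu hp (hl u hu)
    simp only [mkSt, mem_flt, orr_iff, dv_iff, memO_iff]
    by_cases h5 : p ∣ y.2
    · exact ⟨h4 y hy h5, Or.inl (hy' ▸ h5)⟩
    · obtain ⟨w, hw, h6, -⟩ := hT.dp y hy p hp (hv ▸ hpv.mul_left _) h5
      exact ⟨h4 w hw (h6 ▸ Dvd.intro _ rfl), Or.inr (hy' ▸ h6 ▸ h.cov w hw (hl w hw))⟩
  · simp only [mkSt, mem_flt, dv_iff] at hp
    exact ⟨(h.pr p hp.1).1, hp.2⟩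
  · simp only [mkSt, mem_flt, an_iff, nt_iff, dv_iff] at hp
    exact ⟨(h.pr p hp.1).1, hp.2.1⟩
  · simp only [mkSt, mem_flt, an_iff, dv_iff] at hp
    exact ⟨(h.pr p hp.1).1, hp.2.1⟩

theorem RelP.mkR (hT : Good n T) (ha : ParOK n T a) (h : Inv1 T P Ps last rem)
    (hl : ∀ y ∈ T, y.2 ≤ last) {Q : List (ℕ × ℕ)} {M : Multiset (ℕ × ℕ)} (hQ : RelP Q M)
    (hP : ∀ b ∈ Q, b ∈ P) (hM : ∀ y ∈ M, y ∈ T) : Rel T (mkR a P Ps Q) M := by
  induction Q generalizing M with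
  | nil => exact hQ
  | cons b Q ih =>
    obtain ⟨A, B, rfl, h0, h1, h2⟩ := hQ
    have : Cls.mkR a P Ps (b :: Q) = frc (bas P Ps b.1 b.2) fun c => frc b.1 fun o =>
      frc b.2 fun m => frc ((mkSt P Ps o c).nxt (low a P Ps o m)) fun x =>
        ins ⟨mkSt P Ps o c, o, m, x⟩ (Cls.mkR a P Ps Q) := rfl
    simp only [this, frc_eq]
    obtain ⟨h3, h4, h5⟩ := h.ent b (hP b (by simp))
    have h6 : ∀ y ∈ T, y.2 = b.1 → bas P Ps b.1 b.2 ∣ y.1 := fun y hy hy' => by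
      rw [h4, ← hy']
      exact h.bas hT hy (hl y hy)
    obtain ⟨z, hz, hz'⟩ := h.exT (hP b (by simp))
    have h7 := h.stOK hT hl (Nat.pos_of_dvd_of_pos (h6 z hz hz') (hT.cpos hz)) h6
    refine Rel.ins ⟨A, B, rfl, h0, ⟨h5, h7.2.2.2.2 _⟩, h7, fun y hy => ⟨h1 y hy, ?_⟩,
      ih h2 (fun c hc => hP c (List.mem_cons_of_mem _ hc))
        fun y hy => hM y (Multiset.mem_add.2 (Or.inr hy))⟩
    have h8 := hM y (Multiset.mem_add.2 (Or.inl hy))
    exact h7.1 y h8 (h1 y hy) _ (h1 y hy ▸ h.low hT ha h8 b.2)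

def KOK1 (T : Multiset (ℕ × ℕ)) (C : Prop) (k : Kont1) : Prop :=
  ∀ P Ps last rem, Inv1 T P Ps last rem → k P Ps last rem = true → C

variable {C : Prop} {k : Kont1}

theorem Inv1.next (h : Inv1 T P Ps last rem) {y : ℕ × ℕ} (hy : y ∈ T) (h1 : last < y.2)
    (h2 : ∀ z ∈ T, z.2 < y.2 → z.2 ≤ last) {Ps' : List ℕ} (h3 : ∀ p ∈ Ps', p.Prime ∧ p ≤ y.2)
    (h4 : ∀ p ∈ Ps, p ∈ Ps') (h5 : y.2.Prime → y.2 ∈ Ps') :
    cnt T y.2 ≤ rem ∧ Inv1 T ((y.2, cnt T y.2) :: P) Ps' y.2 (rem - cnt T y.2) := by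
  obtain ⟨M, N, hT, h6, h7, h8⟩ := h.ex
  have h10 : cnt T y.2 = (N.filter fun z => z.2 = y.2).card := by
    rw [hT, cnt, Multiset.countP_add, Multiset.countP_eq_zero.2 fun z hz hz' => by
      obtain ⟨b, hb, hb'⟩ := h6.mem hz
      have := (h.ent b hb).1
      omega, zero_add, Multiset.countP_eq_card_filter]
  have h11 := congrArg Multiset.card (Multiset.filter_add_not (fun z : ℕ × ℕ => z.2 = y.2) N)
  rw [Multiset.card_add, ← h10, h7] at h11
  refine ⟨by omega, by omega, fun b hb => ?_, fun z hz hz' => ?_,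
    ⟨N.filter (fun z => z.2 = y.2) + M, N.filter fun z => ¬ z.2 = y.2, ?_,
      ⟨_, _, rfl, h10.symm, fun z hz => (Multiset.mem_filter.1 hz).2, h6⟩, by omega,
      fun z hz => ?_⟩, h3, fun z hz hp hz' => ?_⟩
  · rcases List.mem_cons.1 hb with rfl | hb
    · exact ⟨le_rfl, rfl, Multiset.countP_pos.2 ⟨y, hy, rfl⟩⟩
    · have := h.ent b hb
      exact ⟨by omega, this.2⟩
  · rcases hz'.eq_or_lt with hz' | hz'
    · exact ⟨_, List.mem_cons_self, hz'.symm⟩
    · obtain ⟨b, hb, hb'⟩ := h.cov z hz (h2 z hz hz')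
      exact ⟨b, List.mem_cons_of_mem _ hb, hb'⟩
  · rw [add_right_comm, Multiset.filter_add_not, hT, add_comm]
  · obtain ⟨hz, hz'⟩ := Multiset.mem_filter.1 hz
    have h12 := h8 z hz
    have := h2 z (hT ▸ Multiset.mem_add.2 (Or.inr hz))
    omega
  · rcases hz'.eq_or_lt with hz' | hz'
    · exact hz' ▸ h5 (hz' ▸ hp)
    · exact h4 _ (h.pr' z hz hp (h2 z hz hz'))

theorem new1_of (hT : Good n T) (ha : ParOK n T a) (hk : KOK1 T C k) (h : Inv1 T P Ps last rem)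
    {y : ℕ × ℕ} (hy : y ∈ T) (h1 : last < y.2) (h2 : ∀ z ∈ T, z.2 < y.2 → z.2 ≤ last)
    (h' : new1 a k P Ps rem y.2 = true) : C := by
  have h3 : y.2 ∣ a.N0 := (hT.dvd y hy).trans ((hT.dvdn y hy).trans ha.N0)
  have h4 : 0 < cnt T y.2 := Multiset.countP_pos.2 ⟨y, hy, rfl⟩
  have h5 := hT.one_lt y hy
  rw [new1, cnd_eq] at h'
  split_ifs at h' with h6
  · simp only [anyL_iff, dv_iff] at h6
    obtain ⟨p, hp, hp'⟩ := h6
    obtain ⟨h6, h7⟩ := h.next hy h1 h2 (Ps' := Ps) (fun q hq => ⟨(h.pr q hq).1, by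
      have := (h.pr q hq).2
      omega⟩) (fun _ h => h) fun h6 => by
        have := (Nat.prime_dvd_prime_iff_eq (h.pr p hp).1 h6).1 hp'
        exact this ▸ hp
    simp only [imp_iff, an_iff, allL_iff, dv_iff, memO_iff, nt_iff, memN_iff] at h'
    have h8 := allR_spec (h' ⟨fun q hq hq' => ?_, h3, ha.forb y hy⟩) h4 (by omega)
    · simp only [frc_eq] at h8
      exact hk _ _ _ _ h7 h8
    · obtain ⟨h8, h9⟩ := h.pr q hq
      obtain ⟨d, hd⟩ := hq'
      have h10 : 1 < d := by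
        rcases d with _ | _ | d <;> omega
      obtain ⟨z, hz, h11, -⟩ := hT.pow y hy d (Dvd.intro_left _ hd.symm) h10
      rw [hd, Nat.mul_div_cancel_left _ h8.pos, ← h11]
      exact h.cov z hz (h2 z hz (by have := h8.one_lt; nlinarith))
  · have hp : y.2.Prime := by
      by_contra h7
      obtain ⟨z, hz, h8, -⟩ := hT.pow y hy _ (Nat.minFac_dvd _) (Nat.minFac_prime h5.ne').one_lt
      refine h6 (anyL_iff.2 ⟨z.2, h.pr' z hz (h8 ▸ Nat.minFac_prime h5.ne') (h2 z hz ?_),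
        dv_iff.2 (h8 ▸ Nat.minFac_dvd _)⟩)
      exact h8 ▸ (Nat.not_prime_iff_minFac_lt h5).1 h7
    obtain ⟨h6, h7⟩ := h.next hy h1 h2 (Ps' := y.2 :: Ps) (fun q hq => by
      rcases List.mem_cons.1 hq with rfl | hq
      · exact ⟨hp, le_rfl⟩
      · have := h.pr q hq
        exact ⟨this.1, by omega⟩) (fun _ h => List.mem_cons_of_mem _ h) fun _ => by simp
    simp only [imp_iff, an_iff, dv_iff, nt_iff, memN_iff] at h'
    have h8 := allR_spec (h' ⟨h3, ha.forb y hy⟩) h4 (by omega)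
    simp only [frc_eq, imp_iff, orr_iff, anyL_iff, an_iff, dv_iff, Nat.ble_eq] at h8
    refine hk _ _ _ _ h7 (h8 ?_)
    obtain ⟨e, h9, h10, rfl | ⟨z, hz, rfl⟩⟩ := hT.gal y hy hp
    · exact Or.inl (by simpa using h10)
    · obtain ⟨b, hb, hb'⟩ := h.cov z hz (h2 z hz (by
        have := Nat.le_of_dvd (by omega) h9
        omega))
      exact Or.inr ⟨b, hb, hb' ▸ h9, hb' ▸ h10⟩

theorem scan_of (hT : Good n T) (ha : ParOK n T a) (hk : KOK1 T C k) (h : Inv1 T P Ps last rem)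
    {y : ℕ × ℕ} (hy : y ∈ T) (h1 : last < y.2) (h2 : ∀ z ∈ T, z.2 < y.2 → z.2 ≤ last) {f o : ℕ}
    (h3 : last < o) (h4 : o ≤ y.2) (h5 : y.2 < o + f)
    (h' : scan a k P Ps rem (ub1 a P Ps P + (KK / a.nmin + 1)) f o = true) : C := by
  induction f generalizing o with
  | zero => omega
  | succ f ih =>
    have : ∀ s, scan a k P Ps rem s (f + 1) o =
      cnd (orr (Nat.blt (s + (rem * KK / mx o a.cmin + 1)) KK)
        (anyL (fun d => an (Nat.blt d o) (nt (memO P d))) a.must)) true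
      (an (new1 a k P Ps rem o) (frc (o + 1) (scan a k P Ps rem s f))) := fun _ => rfl
    rw [this, cnd_eq] at h'
    split_ifs at h' with h6
    · exfalso
      simp only [orr_iff, Nat.blt_eq, anyL_iff, an_iff, nt_iff, memO_iff] at h6
      rcases h6 with h6 | ⟨d, hd, h6, h7⟩
      · obtain ⟨M, N, h7, h8, h9, h10⟩ := h.ex
        have h11 := h8.ub1 hT ha h (fun _ h => h) fun z hz => h7 ▸ Multiset.mem_add.2 (Or.inl hz)
        have h12 := inv_le ha.nmin_pos ha.nmin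
        have h13 := W_le (A := N) (x := mx o a.cmin) (by simp; omega) fun z hz => by
          have hz' : z ∈ T := h7 ▸ Multiset.mem_add.2 (Or.inr hz)
          have h14 := h10 z hz
          have h15 := h2 z hz'
          have h16 := Nat.le_of_dvd (hT.cpos hz') (hT.dvd z hz')
          have h17 := ha.cmin z hz'
          simp; omega
        have h14 := hT.sum
        rw [h7, W_add] at h14
        rw [h9] at h13
        have h15 : ((ub1 a P Ps P + (KK / a.nmin + 1) + (rem * KK / mx o a.cmin + 1) : ℕ) : ℚ) <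
          KK := by exact_mod_cast h6
        rw [Nat.cast_add, Nat.cast_add] at h15
        have h16 : (KK : ℚ) * ((n : ℚ)⁻¹ + (W M + W N)) = KK := by rw [h14, mul_one]
        linarith
      · obtain ⟨z, hz, rfl⟩ := ha.must d hd
        exact h7 (h.cov z hz (h2 z hz (by omega)))
    · rw [an_iff, frc_eq] at h'
      rcases h4.eq_or_lt with rfl | h4
      · exact new1_of hT ha hk h hy h1 h2 h'.1
      · exact ih (by omega) h4 (by omega) h'.2

theorem ph1_of (hT : Good n T) (ha : ParOK n T a) {hook : Kont1} (hh : KOK1 T C hook)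
    {leaf : List (ℕ × ℕ) → ℕ → List (ℕ × ℕ) → Bool}
    (hl : ∀ P L : List (ℕ × ℕ), T = L → leaf P n L = true → C) (f : ℕ) :
    KOK1 T C (ph1 a hook leaf f) := by
  induction f with
  | zero => exact fun _ _ _ _ _ h => absurd h Bool.false_ne_true
  | succ f ih =>
    intro P Ps last rem h h'
    have h1 : orr (hook P Ps last rem) (frc (ub1 a P Ps P + (KK / a.nmin + 1)) fun s =>
      cnd (Nat.beq rem 0) (orr (Nat.blt s KK) (imp (allL (memO P) a.must)
          (step a.N0 a.nmin P (leaf P) 3000 (mkR a P Ps P) [] 1 1)))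
        (frc (last + 1) (scan a (ph1 a hook leaf f) P Ps rem s (last * (last + rem))))) = true := h'
    rw [orr_iff, frc_eq, cnd_eq] at h1
    rcases h1 with h1 | h1
    · exact hh _ _ _ _ h h1
    obtain ⟨M, N, h2, h3, h4, h5⟩ := h.ex
    split_ifs at h1 with h6
    · have h7 : rem = 0 := by simpa using h6
      obtain rfl : N = 0 := Multiset.card_eq_zero.1 (h4.trans h7)
      rw [add_zero] at h2
      subst h2
      have h9 : ∀ z ∈ T, z.2 ≤ last := fun z hz => by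
        obtain ⟨b, hb, hb'⟩ := h3.mem hz
        exact hb' ▸ (h.ent b hb).1
      simp only [orr_iff, Nat.blt_eq, imp_iff, allL_iff, memO_iff] at h1
      rcases h1 with h1 | h1
      · exfalso
        have h11 := h3.ub1 hT ha h (fun _ h => h) fun _ h => h
        have h12 := inv_le ha.nmin_pos ha.nmin
        have h15 : ((ub1 a P Ps P + (KK / a.nmin + 1) : ℕ) : ℚ) < KK := by exact_mod_cast h1
        rw [Nat.cast_add] at h15
        have h16 : (KK : ℚ) * ((n : ℚ)⁻¹ + W T) = KK := by rw [hT.sum, mul_one]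
        linarith
      · refine step_of hT ha.N0 ha.nmin (fun z hz => mult_eq (h3.mem hz) fun b hb hb' =>
          hb' ▸ (h.ent b hb).2.1) (hl P) 3000 _ _ _ _ ⟨one_pos, T,
            h3.mkR hT ha h h9 (fun _ h => h) fun _ h => h, by simp, by simp [hT.sum]⟩
          (h1 fun d hd => ?_)
        obtain ⟨z, hz, rfl⟩ := ha.must d hd
        exact h3.mem hz
    · have h7 : rem ≠ 0 := by simpa using h6
      obtain ⟨y, hy, hy'⟩ := N.toFinset.exists_min_image (fun z => z.2) (by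
        obtain ⟨y, hy⟩ := Multiset.card_pos_iff_exists_mem.1 (show 0 < N.card by omega)
        exact ⟨y, Multiset.mem_toFinset.2 hy⟩)
      rw [Multiset.mem_toFinset] at hy
      have hyT : y ∈ T := h2 ▸ Multiset.mem_add.2 (Or.inr hy)
      have h8 : ∀ z ∈ T, z.2 < y.2 → z.2 ≤ last := fun z hz hz' => by
        rcases Multiset.mem_add.1 (h2 ▸ hz) with h8 | h8
        · obtain ⟨b, hb, hb'⟩ := h3.mem h8
          exact hb' ▸ (h.ent b hb).1
        · exact absurd (hy' z (Multiset.mem_toFinset.2 h8)) hz'.not_ge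
      rw [frc_eq] at h1
      refine scan_of hT ha ih h hyT (h5 y hy) h8 (Nat.lt_succ_self _) (h5 y hy) ?_ h1
      have h9 := hT.one_lt y hyT
      have h10 := h.pos
      by_cases hp : y.2.Prime
      · have h11 : cnt T y.2 ≤ rem := (h.next hyT (h5 y hy) h8 (Ps' := y.2 :: Ps) (fun q hq => by
          rcases List.mem_cons.1 hq with rfl | hq
          · exact ⟨hp, le_rfl⟩
          · have := h.pr q hq
            exact ⟨this.1, this.2.trans (h5 y hy).le⟩) (fun _ h => List.mem_cons_of_mem _ h)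
              fun _ => by simp).1
        obtain ⟨e, h12, h13, h14⟩ := hT.gal y hyT hp
        have h15 : e ≤ last := by
          rcases h14 with rfl | ⟨z, hz, rfl⟩
          · exact h10
          · refine h8 z hz ?_
            have := Nat.le_of_dvd (by omega) h12
            omega
        have := Nat.mul_le_mul h15 h11
        rw [mul_add]
        omega
      · obtain ⟨d, hd⟩ := Nat.minFac_dvd y.2
        have h11 := (Nat.minFac_prime h9.ne').one_lt
        have h12 := (Nat.not_prime_iff_minFac_lt h9).1 hp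
        have h13 : 1 < d := by
          rcases d with _ | _ | d <;> omega
        obtain ⟨z, hz, h14, -⟩ := hT.pow y hyT _ (Nat.minFac_dvd _) h11
        obtain ⟨w, hw, h15, -⟩ := hT.pow y hyT d (Dvd.intro_left _ hd.symm) h13
        have := Nat.mul_le_mul (h8 z hz (by omega)) (h8 w hw (by nlinarith))
        rw [h14, h15, ← hd] at this
        rw [mul_add]
        omega

end CL.Cls
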