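import Cfsg.Agent.INV.Cls.Phase1
import Cfsg.Agent.INV.Cls.Deg

/-! The class equation search applied to a finite simple group. -/

set_option autoImplicit false

namespace CL.Cls

abbrev Dat := List (ℕ × ℕ × ℕ)

abbrev Sta := List (ℕ × ℕ) × List ℕ × ℕ × ℕ

noncomputable section

def cntL (L : List (ℕ × ℕ)) (d : ℕ) : ℕ :=
  List.rec 0 (fun a _ ih => cnd (Nat.beq a.2 d) (ih + 1) ih) L

def memL (L : List (ℕ × ℕ)) (c o : ℕ) : Bool := anyL (fun a => an (Nat.beq a.1 c) (Nat.beq a.2 o)) L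

def sdL (L : List (ℕ × ℕ)) (w : ℕ × ℕ × ℕ) : Bool :=
  an (memL L (w.1 * w.2.2) w.1) (Nat.beq (w.2.1 * cntL L w.1) (w.1 - 1))

def srL (L : List (ℕ × ℕ)) (w : ℕ × ℕ × ℕ) : Bool :=
  an (memL L w.2.2 w.1) (an (Nat.beq (cntL L w.1) 1) (Nat.beq (cntL L (w.1 * w.1)) 0))

def leaf (a : Par) (k : ℕ) (Wl : List (ℕ × Dat × Dat)) (_ : List (ℕ × ℕ)) (n : ℕ)
    (L : List (ℕ × ℕ)) : Bool :=
  imp (an (Nat.ble a.nmin n) (an (dv n a.N0) (an (allL (fun y => dv y.1 n) L)
      (allL (fun y => imp (Nat.beq y.2 2) (Nat.ble n (y.1 + k * (y.1 * y.1)))) L))))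
    (anyL (fun w => an (Nat.beq n w.1) (an (allL (sdL L) w.2.1) (allL (srL L) w.2.2))) Wl)

def eqP (P : List (ℕ × ℕ)) : List (ℕ × ℕ) → Bool :=
  List.rec (fun Q => List.rec true (fun _ _ _ => false) Q)
    (fun a _ ih Q => List.rec false (fun b tl _ =>
      an (Nat.beq a.1 b.1) (an (Nat.beq a.2 b.2) (ih tl))) Q) P

def eqN (P : List ℕ) : List ℕ → Bool :=
  List.rec (fun Q => List.rec true (fun _ _ _ => false) Q)
    (fun a _ ih Q => List.rec false (fun b tl _ => an (Nat.beq a b) (ih tl)) Q) P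

def hk (H : List Sta) : Kont1 := fun P Ps last rem =>
  anyL (fun h => an (Nat.beq rem h.2.2.2) (an (Nat.beq last h.2.2.1)
    (an (eqP P h.1) (eqN Ps h.2.1)))) H

/-- the search below the states `S`, where the states `H` count as done -/
def run (a : Par) (k : ℕ) (Wl : List (ℕ × Dat × Dat)) (H S : List Sta) : Bool :=
  allL (fun s => ph1 a (hk H) (leaf a k Wl) 20 s.1 s.2.1 s.2.2.1 s.2.2.2) S

end

theorem cntL_eq (L : List (ℕ × ℕ)) (d : ℕ) : cntL L d = cnt L d := by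
  induction L with
  | nil => rfl
  | cons a L ih =>
    have : cntL (a :: L) d = cnd (Nat.beq a.2 d) (cntL L d + 1) (cntL L d) := rfl
    rw [this, cnd_eq, ih, ← Multiset.cons_coe, cnt, cnt, Multiset.countP_cons]
    by_cases h : a.2 = d <;> simp [h]

theorem memL_iff {L : List (ℕ × ℕ)} {c o : ℕ} : memL L c o = true ↔ (c, o) ∈ L := by
  simp only [memL, anyL_iff, an_iff, Nat.beq_eq]
  exact ⟨fun ⟨a, h, h1, h2⟩ => h1 ▸ h2 ▸ h, fun h => ⟨_, h, rfl, rfl⟩⟩

theorem eqP_eq {P Q : List (ℕ × ℕ)} (h : eqP P Q = true) : P = Q := by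
  induction P generalizing Q with
  | nil => cases Q with
    | nil => rfl
    | cons => exact absurd h Bool.false_ne_true
  | cons a P ih => cases Q with
    | nil => exact absurd h Bool.false_ne_true
    | cons b Q =>
      have h : an (Nat.beq a.1 b.1) (an (Nat.beq a.2 b.2) (eqP P Q)) = true := h
      simp only [an_iff, Nat.beq_eq] at h
      rw [ih h.2.2, Prod.ext h.1 h.2.1]

theorem eqN_eq {P Q : List ℕ} (h : eqN P Q = true) : P = Q := by
  induction P generalizing Q with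
  | nil => cases Q with
    | nil => rfl
    | cons => exact absurd h Bool.false_ne_true
  | cons a P ih => cases Q with
    | nil => exact absurd h Bool.false_ne_true
    | cons b Q =>
      have h : an (Nat.beq a b) (eqN P Q) = true := h
      simp only [an_iff, Nat.beq_eq] at h
      rw [ih h.2, h.1]

/-- the states `S` lead to the data `Wl` -/
def Done (a : Par) (k : ℕ) (Wl : List (ℕ × Dat × Dat)) (S : List Sta) : Prop :=
  ∀ n T, Good n T → ParOK n T a → (∀ y ∈ T, y.2 = 2 → n ≤ y.1 + k * (y.1 * y.1)) → ∀ s ∈ S,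
    Inv1 T s.1 s.2.1 s.2.2.1 s.2.2.2 →
      ∃ w ∈ Wl, n = w.1 ∧ (∀ d ∈ w.2.1, SD T d) ∧ ∀ d ∈ w.2.2, SR T d

variable {a : Par} {k : ℕ} {Wl : List (ℕ × Dat × Dat)} {H S : List Sta}

theorem Done.nil : Done a k Wl [] := fun _ _ _ _ _ _ h => absurd h List.not_mem_nil

theorem Done.app (h : Done a k Wl H) (h' : Done a k Wl S) : Done a k Wl (H ++ S) :=
  fun n T h1 h2 h3 s hs => (List.mem_append.1 hs).elim (h n T h1 h2 h3 s) (h' n T h1 h2 h3 s)

theorem Done.run (h : Done a k Wl H) (h' : run a k Wl H S = true) : Done a k Wl S := by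
  intro n T h1 h2 h3 s hs h4
  refine ph1_of h1 h2 (fun P Ps last rem h5 h6 => ?_) (fun P L hL h5 => ?_) 20 _ _ _ _ h4
    (allL_iff.1 h' s hs)
  · simp only [hk, anyL_iff, an_iff, Nat.beq_eq] at h6
    obtain ⟨t, ht, rfl, rfl, h7, h8⟩ := h6
    exact h n T h1 h2 h3 t ht (eqP_eq h7 ▸ eqN_eq h8 ▸ h5)
  · subst hL
    simp only [leaf, imp_iff, an_iff, anyL_iff, allL_iff, Nat.ble_eq, dv_iff, Nat.beq_eq, sdL, srL,
      memL_iff, cntL_eq] at h5
    exact h5 ⟨h2.nmin, h2.N0, h1.dvdn, h3⟩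

variable {G : Type*} [Group G] [Finite G] [IsSimpleGroup G]

theorem Done.root (hG : ¬ IsMulCommutative G) (hk : Nat.card (ConjClasses G) = k + 1)
    (ha : ParOK (Nat.card G) (TT G) a) (h : Done a k Wl [([], [], 1, k)]) :
    ∃ w ∈ Wl, Nat.card G = w.1 ∧ surv2 w.1 (k + 1) w.2.1 w.2.2 = true := by
  have h1 : (TT G).card = k := by have := card_TT (G := G); omega
  have h2 := good hG
  obtain ⟨w, hw, h3, h4, h5⟩ := h _ _ h2 ha (fun y hy h => h1 ▸ bf_TT hy h) _
    (List.mem_singleton_self _) ⟨one_pos, by simp, fun y hy h => absurd (h2.one_lt y hy) h.not_gt,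
      ⟨0, _, (zero_add _).symm, rfl, h1, h2.one_lt⟩, by simp,
      fun y hy _ h => absurd (h2.one_lt y hy) h.not_gt⟩
  exact ⟨w, hw, h3, h3 ▸ hk ▸ surv2_of hG h4 h5⟩

theorem Done.mem (hG : ¬ IsMulCommutative G) (hk : Nat.card (ConjClasses G) = k + 1)
    (ha : ParOK (Nat.card G) (TT G) a) (h : Done a k Wl [([], [], 1, k)]) (ok : List ℕ)
    (hw : (Wl.all fun w => decide (w.1 ∈ ok) || !surv2 w.1 (k + 1) w.2.1 w.2.2) = true) :
    Nat.card G ∈ ok := by
  obtain ⟨w, h1, h2, h3⟩ := h.root hG hk ha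
  simpa [h3, h2] using List.all_eq_true.1 hw w h1

end CL.Cls
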