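import Cfsg.Agent.INV.Cls.Base

/-! The class equation search: soundness of the second phase. -/

set_option autoImplicit false

namespace CL.Cls

/-- Numerical properties of the pairs (centralizer order, element order) of the nontrivial
classes of a simple group of order `n`. -/
structure Good (n : ℕ) (T : Multiset (ℕ × ℕ)) : Prop where
  pos : 0 < n
  sum : (n : ℚ)⁻¹ + W T = 1
  one_lt : ∀ y ∈ T, 1 < y.2
  dvd : ∀ y ∈ T, y.2 ∣ y.1
  dvdn : ∀ y ∈ T, y.1 ∣ n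
  two_le : ∀ y ∈ T, 2 * y.1 ≤ n
  pow : ∀ y ∈ T, ∀ d, d ∣ y.2 → 1 < d → ∃ z ∈ T, z.2 = d ∧ y.1 ∣ z.1
  dp : ∀ y ∈ T, ∀ p, p.Prime → p ∣ y.1 → ¬ p ∣ y.2 →
    ∃ z ∈ T, z.2 = p * y.2 ∧ z.1 ∣ y.1 ∧ ¬ p ∣ y.1 / z.1
  four : 4 ∣ n
  sq : ∀ y ∈ T, y.2.Prime → y.2 * y.2 ∣ n → y.2 * y.2 ∣ y.1
  gal : ∀ y ∈ T, y.2.Prime → ∃ e, e ∣ y.2 - 1 ∧ y.2 - 1 ≤ e * cnt T y.2 ∧
    (e = 1 ∨ ∃ z ∈ T, z.2 = e)
  syl : ∀ y ∈ T, y.2.Prime → ¬ y.2 * y.2 ∣ n → ∃ e, e * cnt T y.2 = y.2 - 1 ∧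
    (∃ z ∈ T, z.2 = e) ∧ ∀ z ∈ T, z.2 = y.2 → z.1 = y.1
  cap : ∀ p j, p.Prime → 0 < j → W (sct p (p ^ j) T) * (p ^ j : ℕ) ≤ cnt T (p ^ j)
  int : ∀ p j, p.Prime → 0 < j → ∃ m a : ℕ, W (sct p (p ^ j) T) * p ^ m = a

def StOK (T : Multiset (ℕ × ℕ)) (s : St) (o : ℕ) : Prop :=
  (∀ y ∈ T, y.2 = o → ∀ z, z ≤ y.1 → s.nxt z ≤ y.1) ∧ (∀ p ∈ s.own, p.Prime ∧ p ∣ o) ∧
    (∀ p ∈ s.fo, p.Prime ∧ ¬ p ∣ o) ∧ (∀ p ∈ s.sec, p.Prime ∧ p ∣ o) ∧ ∀ z, 0 < s.nxt z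

def Rel (T : Multiset (ℕ × ℕ)) : List Ent → Multiset (ℕ × ℕ) → Prop
  | [], M => M = 0
  | e :: R, M => ∃ A B, M = A + B ∧ A.card = e.r ∧ (0 < e.r ∧ 0 < e.x) ∧ StOK T e.s e.o ∧
      (∀ y ∈ A, y.2 = e.o ∧ e.x ≤ y.1) ∧ Rel T R B

variable {n : ℕ} {T : Multiset (ℕ × ℕ)}

theorem Good.cpos (h : Good n T) {y : ℕ × ℕ} (hy : y ∈ T) : 0 < y.1 :=
  Nat.pos_of_dvd_of_pos (h.dvdn y hy) h.pos

theorem Rel.mem {R : List Ent} {M : Multiset (ℕ × ℕ)} (h : Rel T R M) {y : ℕ × ℕ} (hy : y ∈ M) :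
    ∃ e ∈ R, e.o = y.2 ∧ e.x ≤ y.1 := by
  induction R generalizing M with
  | nil => simp [show M = 0 from h] at hy
  | cons e R ih =>
    obtain ⟨A, B, rfl, -, -, -, h1, h2⟩ := h
    rcases Multiset.mem_add.1 hy with hy | hy
    · exact ⟨e, by simp, (h1 y hy).1.symm, (h1 y hy).2⟩
    · obtain ⟨a, ha, ha'⟩ := ih h2 hy
      exact ⟨a, List.mem_cons_of_mem _ ha, ha'⟩

theorem Rel.ex {R : List Ent} {M : Multiset (ℕ × ℕ)} (h : Rel T R M) {e : Ent} (he : e ∈ R) :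
    ∃ y ∈ M, y.2 = e.o := by
  induction R generalizing M with
  | nil => simp at he
  | cons a R ih =>
    obtain ⟨A, B, rfl, h0, h0', -, h1, h2⟩ := h
    rcases List.mem_cons.1 he with rfl | he
    · obtain ⟨y, hy⟩ := Multiset.card_pos_iff_exists_mem.1 (h0 ▸ h0'.1)
      exact ⟨y, Multiset.mem_add.2 (Or.inl hy), (h1 y hy).1⟩
    · obtain ⟨y, hy, hy'⟩ := ih h2 he
      exact ⟨y, Multiset.mem_add.2 (Or.inr hy), hy'⟩

theorem Rel.ub {R : List Ent} {M : Multiset (ℕ × ℕ)} (h : Rel T R M) :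
    KK * W M ≤ (ub R : ℕ) := by
  induction R generalizing M with
  | nil => simp [show M = 0 from h]
  | cons e R ih =>
    obtain ⟨A, B, rfl, h0, hx, -, h1, h2⟩ := h
    have : Cls.ub (e :: R) = e.r * KK / e.x + 1 + Cls.ub R := rfl
    have h3 := W_le hx.2 (fun y hy => (h1 y hy).2)
    have h4 := ih h2
    rw [this, W_add, Nat.cast_add, ← h0]
    linarith

theorem Rel.ins {e : Ent} {R : List Ent} {M : Multiset (ℕ × ℕ)} (h : Rel T (e :: R) M) :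
    Rel T (ins e R) M := by
  induction R generalizing M with
  | nil => exact h
  | cons a R ih =>
    have : Cls.ins e (a :: R) = cnd (orr (Nat.blt e.x a.x) (an (Nat.beq e.x a.x)
      (Nat.ble a.o e.o))) (e :: a :: R) (a :: Cls.ins e R) := rfl
    rw [this, cnd_eq]
    split_ifs
    · exact h
    · obtain ⟨A, B, rfl, h0, h1, h2, h3, A', B', rfl, h4, h5, h6, h7, h8⟩ := h
      exact ⟨A', A + B', add_left_comm _ _ _, h4, h5, h6, h7,
        ih ⟨A, B', rfl, h0, h1, h2, h3, h8⟩⟩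

theorem Rel.jump {lo : ℕ} {R : List Ent} {M : Multiset (ℕ × ℕ)} (h : Rel T R M)
    (hM : ∀ y ∈ M, y ∈ T ∧ lo ≤ y.1) : Rel T (jump lo R) M := by
  induction R generalizing M with
  | nil => exact h
  | cons a R ih =>
    have : Cls.jump lo (a :: R) = cnd (Nat.blt a.x lo) (frc (a.s.nxt lo) fun x =>
      Cls.ins ⟨a.s, a.o, a.r, x⟩ (Cls.jump lo R)) (a :: R) := rfl
    rw [this, cnd_eq]
    split_ifs
    · obtain ⟨A, B, rfl, h0, h1, h2, h3, h4⟩ := h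
      rw [frc_eq]
      refine Rel.ins ⟨A, B, rfl, h0, ⟨h1.1, h2.2.2.2.2 _⟩, h2, fun y hy => ⟨(h3 y hy).1, ?_⟩,
        ih h4 fun y hy => hM y (Multiset.mem_add.2 (Or.inr hy))⟩
      have := hM y (Multiset.mem_add.2 (Or.inl hy))
      exact h2.1 y this.1 (h3 y hy).1 lo this.2
    · exact h

theorem secOK_of (hT : Good n T) {P : List (ℕ × ℕ)} (hP : ∀ y ∈ T, mult P y.2 = cnt T y.2)
    {R : List Ent} {M : Multiset (ℕ × ℕ)} {L : List (ℕ × ℕ)} (hR : Rel T R M) (hM : T = M + L)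
    {y : ℕ × ℕ} (hy : y ∈ T) {p : ℕ} (hp : p.Prime) (hpo : p ∣ y.2) :
    secOK P R L y.2 p = true := by
  obtain ⟨j, -, hj⟩ := (Nat.dvd_prime_pow hp).1 (Nat.gcd_dvd_right y.2 (p ^ 20))
  have hj0 : 0 < j := Nat.pos_of_ne_zero (by
    rintro rfl
    have := Nat.dvd_gcd hpo (dvd_pow_self p (n := 20) (by norm_num))
    rw [hj] at this
    exact hp.one_lt.ne' (Nat.dvd_one.1 this))
  obtain ⟨z, hz, hz', -⟩ := hT.pow y hy (p ^ j) (hj ▸ Nat.gcd_dvd_left _ _)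
    (Nat.one_lt_pow hj0.ne' hp.one_lt)
  have h1 := hP z hz
  rw [hz'] at h1
  obtain ⟨A, B, hB, h2, h3⟩ := mass_spec (p := p) (q := p ^ j) (k := secK P R p (p ^ j)) (L := L)
    (fun y hy => hT.cpos (hM ▸ Multiset.mem_add.2 (Or.inr hy))) (A := 0) one_pos
  rw [secOK, frc_eq, hj, h3, secK, cnd_eq, h1]
  have h4 := hT.cap p j hp hj0
  have h5 : W (sct p (p ^ j) T) = W (sct p (p ^ j) M) + A / B := by
    rw [h2, hM, sct, Multiset.filter_add, W_add]; simp [sct]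
  have hB' : (0 : ℚ) < B := by exact_mod_cast hB
  have hq : (0 : ℚ) < (p ^ j : ℕ) := by exact_mod_cast pow_pos hp.pos j
  split_ifs with h6
  · obtain ⟨a, ha, ha'⟩ := anyL_iff.1 h6
    obtain ⟨w, hw, hw'⟩ := hR.ex ha
    have h7 : (w.1 : ℚ)⁻¹ ≤ W (sct p (p ^ j) M) :=
      le_W (Multiset.mem_filter.2 ⟨hw, by rw [hw']; exact inG_iff.1 ha'⟩)
    have h8 : (0 : ℚ) < (w.1 : ℚ)⁻¹ :=
      inv_pos.2 (by exact_mod_cast hT.cpos (hM ▸ Multiset.mem_add.2 (Or.inl hw)))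
    have h9 : (A : ℚ) / B * (p ^ j : ℕ) < cnt T (p ^ j) := by nlinarith
    rw [div_mul_eq_mul_div, div_lt_iff₀ hB'] at h9
    rw [Nat.blt_eq]
    exact_mod_cast h9
  · have h7 : sct p (p ^ j) M = 0 := Multiset.filter_eq_nil.2 fun w hw hw' => by
      obtain ⟨a, ha, ha', -⟩ := hR.mem hw
      exact h6 (anyL_iff.2 ⟨a, ha, by rw [ha']; exact inG_iff.2 hw'⟩)
    rw [h7, W_zero, zero_add] at h5
    rw [h5, div_mul_eq_mul_div, div_le_iff₀ hB'] at h4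
    obtain ⟨m, a, h8⟩ := hT.int p j hp hj0
    rw [h5, div_mul_eq_mul_div, div_eq_iff hB'.ne'] at h8
    have h9 : A * p ^ m = a * B := by exact_mod_cast h8
    simp only [an_iff, Nat.ble_eq, frc_eq, orr_iff, dv_iff]
    refine ⟨by exact_mod_cast h4, or_iff_not_imp_left.2 fun h10 => ?_⟩
    refine (Nat.Coprime.pow_right m ((hp.coprime_iff_not_dvd.2 h10).symm)).dvd_of_dvd_mul_right ?_
    rw [h9]
    exact (Nat.div_dvd_of_dvd (Nat.gcd_dvd_left _ _)).mul_left _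

theorem att_of (hT : Good n T) {N0 : ℕ} (hN : n ∣ N0) {s : St} {o c : ℕ} (hs : StOK T s o)
    {R : List Ent} {A B : Multiset (ℕ × ℕ)} {L : List (ℕ × ℕ)} (hR : Rel T R B)
    (hM : T = A + B + L) (hA : ∀ y ∈ A, y.2 = o) (hy : (c, o) ∈ T) :
    att N0 s o c R L = true := by
  have key : ∀ z ∈ T, z.2 ≠ o → (∃ e ∈ R, e.o = z.2 ∧ e.x ≤ z.1) ∨ z ∈ L := fun z hz hz' => by
    rw [hM, Multiset.mem_add, Multiset.mem_add] at hz
    rcases hz with (hz | hz) | hz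
    · exact absurd (hA z hz) hz'
    · exact Or.inl (hR.mem hz)
    · exact Or.inr hz
  have ho : 1 < o := hT.one_lt _ hy
  simp only [att, an_iff, dv_iff, allL_iff, dpOK, powOK, imp_iff, frc_eq, orr_iff, anyL_iff,
    nt_iff, Nat.beq_eq, Nat.ble_eq]
  refine ⟨(hT.dvdn _ hy).trans hN, fun p hp hpc => ?_, fun p hp => ?_⟩
  · obtain ⟨h1, h2⟩ := hs.2.2.1 p hp
    obtain ⟨z, hz, h3, h4, h5⟩ := hT.dp _ hy p h1 hpc h2
    rcases key z hz (by have := h1.one_lt; simp only at h3; nlinarith) with ⟨e, he, h6, h7⟩ | h6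
    · exact Or.inr ⟨e, he, h6.trans h3, h7.trans (Nat.le_of_dvd (hT.cpos hy) h4)⟩
    · exact Or.inl ⟨z, h6, h3, h4, h5⟩
  · obtain ⟨h1, d, rfl⟩ := hs.2.1 p hp
    refine or_iff_not_imp_left.2 fun h2 => ?_
    rw [Nat.mul_div_cancel_left _ h1.pos]
    have h3 : 1 < d := by
      rcases d with _ | _ | d
      · simp at ho
      · simp at h2
      · omega
    obtain ⟨z, hz, h4, h5⟩ := hT.pow _ hy d (Dvd.intro_left _ rfl) h3
    rcases key z hz (by have := h1.one_lt; nlinarith) with ⟨e, he, h6, -⟩ | h6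
    · exact Or.inl ⟨e, he, h6.trans h4⟩
    · exact Or.inr ⟨z, h6, h4, h5⟩

/-- the invariant of the second phase -/
structure Inv2 (n : ℕ) (T : Multiset (ℕ × ℕ)) (R : List Ent) (L : List (ℕ × ℕ)) (num den : ℕ) :
    Prop where
  den_pos : 0 < den
  ex : ∃ M, Rel T R M ∧ T = M + L ∧ (num : ℚ) / den = (n : ℚ)⁻¹ + W M

def KOK (n : ℕ) (T : Multiset (ℕ × ℕ)) (C : Prop) (k : Kont) : Prop :=
  ∀ R L num den, Inv2 n T R L num den → k R L num den = true → C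

variable {C : Prop} {k : Kont}

theorem asg2_of (hT : Good n T) (hk : KOK n T C k) {R : List Ent} {L : List (ℕ × ℕ)}
    {num den : ℕ} (h : Inv2 n T R L num den) (h' : asg2 k R L num den = true) : C := by
  obtain ⟨hd, M, h1, h2, h3⟩ := h
  simp only [asg2, frc_eq] at h'
  have hg := Nat.gcd_pos_of_pos_right num hd
  have hd' : 0 < den / Nat.gcd num den := Nat.div_pos (Nat.gcd_le_right _ hd) hg
  have h4 : ((num / Nat.gcd num den : ℕ) : ℚ) / (den / Nat.gcd num den : ℕ) = num / den := by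
    have : ((Nat.gcd num den : ℕ) : ℚ) ≠ 0 := by exact_mod_cast hg.ne'
    rw [Nat.cast_div (Nat.gcd_dvd_left _ _) this, Nat.cast_div (Nat.gcd_dvd_right _ _) this,
      div_div_div_cancel_right₀ this]
  refine hk _ _ _ _ ⟨hd', M, h1.jump fun y hy => ?_, h2, h4.trans h3⟩ h'
  have hy' : y ∈ T := h2 ▸ Multiset.mem_add.2 (Or.inl hy)
  refine ⟨hy', ?_⟩
  rw [← h4] at h3
  generalize num / Nat.gcd num den = a, den / Nat.gcd num den = b at *
  have h5 := le_W hy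
  have h6 : (0 : ℚ) < (n : ℚ)⁻¹ := inv_pos.2 (by exact_mod_cast hT.pos)
  have h7 : (y.1 : ℚ)⁻¹ < a / b := by linarith
  have h8 : (0 : ℚ) < y.1 := by exact_mod_cast hT.cpos hy'
  rw [lt_div_iff₀ (by exact_mod_cast hd'), inv_mul_lt_iff₀ h8] at h7
  have h9 : b < y.1 * a := by exact_mod_cast h7
  exact (Nat.div_lt_iff_lt_mul (Nat.pos_of_ne_zero (by rintro rfl; simp at h9))).2 h9

theorem step1_of (hT : Good n T) {N0 nmin : ℕ} (hN : n ∣ N0) (hn : nmin ≤ n)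
    {P : List (ℕ × ℕ)} (hP : ∀ y ∈ T, mult P y.2 = cnt T y.2) (hk : KOK n T C k) {s : St}
    {o r c : ℕ} {R : List Ent} {L : List (ℕ × ℕ)} {num den : ℕ}
    (h : Inv2 n T (⟨s, o, r, c⟩ :: R) L num den)
    (h' : step1 N0 nmin P k s o r c R L num den = true) : C := by
  obtain ⟨hd, M, ⟨A, B, rfl, h0, ⟨hr, hc⟩, hs, hA, hB⟩, h2, h3⟩ := h
  simp only at h0 hr hc hs hA
  have hAT : ∀ y ∈ A, y ∈ T := fun y hy => by simp [h2, hy]
  have hd' : (0 : ℚ) < den := by exact_mod_cast hd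
  rw [step1, cnd_eq] at h'
  split_ifs at h' with h4
  · exfalso
    obtain ⟨y, hy⟩ := Multiset.card_pos_iff_exists_mem.1 (h0 ▸ hr)
    have h5 := inv_le (x := mx nmin (2 * c)) (n := n) (by simp [hc]) (by
      have := hT.two_le y (hAT y hy)
      have := (hA y hy).2
      simp; omega)
    have h6 := W_le hc fun y hy => (hA y hy).2
    have h7 := hB.ub
    rw [Nat.blt_eq] at h4
    have h8 : ((r * KK / c + 1 + ub R + (KK / mx nmin (2 * c) + 1) : ℕ) : ℚ) * den < num * KK := by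
      exact_mod_cast h4
    rw [div_eq_iff hd'.ne', W_add] at h3
    rw [h3, Nat.cast_add, Nat.cast_add _ (ub R)] at h8
    rw [h0] at h6
    nlinarith
  simp only [an_iff, imp_iff, frc_eq] at h'
  by_cases hy : (c, o) ∈ A
  · have h5 := h'.1 (att_of hT hN hs hB h2 (fun y hy => (hA y hy).1) (hAT _ hy))
    obtain ⟨A', rfl⟩ := Multiset.exists_cons_of_mem hy
    have h6 : Rel T (Nat.rec R (fun _ _ => ⟨s, o, r - 1, c⟩ :: R) (r - 1)) (A' + B) := by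
      rw [Multiset.card_cons] at h0
      obtain rfl : r = A'.card + 1 := h0.symm
      rw [Nat.add_sub_cancel]
      rcases h7 : A'.card with _ | m
      · rw [Multiset.card_eq_zero.1 h7, zero_add]
        exact hB
      · exact ⟨A', B, rfl, h7, ⟨m.succ_pos, hc⟩, hs,
          fun y hy => hA y (Multiset.mem_cons_of_mem hy), hB⟩
    have h7 : T = A' + B + ((c, o) :: L : List (ℕ × ℕ)) := by
      rw [h2, ← Multiset.cons_coe, Multiset.cons_add, Multiset.cons_add, Multiset.add_cons]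
    rw [asg1, imp_iff, frc_eq, frc_eq] at h5
    refine asg2_of hT hk ⟨Nat.mul_pos hd hc, A' + B, h6, h7, ?_⟩ (h5 (allL_iff.2 fun p hp =>
      secOK_of hT hP h6 h7 (hAT _ hy) (hs.2.2.2.1 p hp).1 (hs.2.2.2.1 p hp).2))
    have hc' : (0 : ℚ) < c := by exact_mod_cast hc
    rw [Multiset.cons_add, W_cons] at h3
    have h8 : (n : ℚ)⁻¹ + W (A' + B) = num / den - (c : ℚ)⁻¹ := by linarith
    have h9 : den ≤ num * c := by
      have h10 := W_nonneg (A' + B)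
      have h11 : (0 : ℚ) ≤ (n : ℚ)⁻¹ := by positivity
      have h12 : (c : ℚ)⁻¹ ≤ num / den := by linarith
      rw [le_div_iff₀ hd', inv_mul_le_iff₀ hc', mul_comm] at h12
      exact_mod_cast h12
    rw [h8, Nat.cast_sub h9]
    push_cast
    field_simp
  · refine hk _ _ _ _ ⟨hd, A + B, Rel.ins ⟨A, B, rfl, h0, ⟨hr, hs.2.2.2.2 _⟩, hs,
      fun y hy' => ⟨(hA y hy').1, hs.1 y (hAT y hy') (hA y hy').1 _ ?_⟩, hB⟩, h2, h3⟩ h'.2
    refine lt_of_le_of_ne (hA y hy').2 fun h5 => hy ?_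
    rwa [h5, ← (hA y hy').1]

theorem step_of (hT : Good n T) {N0 nmin : ℕ} (hN : n ∣ N0) (hn : nmin ≤ n)
    {P : List (ℕ × ℕ)} (hP : ∀ y ∈ T, mult P y.2 = cnt T y.2) {leaf : ℕ → List (ℕ × ℕ) → Bool}
    (hl : ∀ L : List (ℕ × ℕ), T = L → leaf n L = true → C) (f : ℕ) :
    KOK n T C (step N0 nmin P leaf f) := by
  induction f with
  | zero => exact fun _ _ _ _ _ h => absurd h Bool.false_ne_true
  | succ f ih =>
    intro R L num den h h'
    cases R with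
    | nil =>
      obtain ⟨hd, M, h1, h2, h3⟩ := h
      obtain rfl : M = 0 := h1
      have h4 : imp (dv num den) (frc (den / num) fun n => leaf n L) = true := h'
      have hn' : (n : ℚ) ≠ 0 := by exact_mod_cast hT.pos.ne'
      have hd' : (den : ℚ) ≠ 0 := by exact_mod_cast hd.ne'
      have h5 : den = num * n := by
        rw [W_zero, add_zero] at h3
        field_simp at h3
        exact_mod_cast h3.symm
      subst h5
      rw [imp_iff, frc_eq, Nat.mul_div_cancel_left _ (Nat.pos_of_mul_pos_right hd)] at h4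
      exact hl L (by simpa using h2) (h4 (dv_iff.2 (Dvd.intro _ rfl)))
    | cons e R => exact step1_of hT hN hn hP ih h h'

end CL.Cls
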